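import Cfsg.Agent.MacW.A
import Cfsg.Agent.Scn.A
import Cfsg.Agent.Transfer.POdd

/-! MacWilliams' four-generator theorem (helper20): `Al W` (a maximal abelian normal subgroup of exponent dividing 4 in a
2-group without normal `E₈`), the counting `Al.fin` and the case `#W ≤ 8`. -/

set_option autoImplicit false
set_option linter.unusedSectionVars false

namespace Cfsg.Agent.MacW
open Subgroup Cfsg.Agent.BG Cfsg.Agent.Scn

variable {G Q : Type*} [Group G] [Finite G] [Group Q] {W H N : Subgroup G} {u c x a : G}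

theorem p4 (x : G) : x ^ 4 = x * x * (x * x) := by simp only [pow_succ, pow_zero, one_mul, mul_assoc]

structure Al (W : Subgroup G) : Prop where
  pg : IsPGroup 2 G
  no : NoE8 G
  nl : W.Normal
  ab : ∀ a ∈ W, ∀ b ∈ W, a * b = b * a
  e4 : ∀ a ∈ W, a ^ 4 = 1
  al : ∀ x ∈ C[W], x ^ 4 = 1 → x ∈ W

theorem exists_Al (pg : IsPGroup 2 G) (no : NoE8 G) : ∃ W : Subgroup G, Al W := by
  obtain ⟨W, ⟨h1, h2, h3⟩, hm⟩ := Set.Finite.exists_maximal (Set.toFinite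
    {B : Subgroup G | B.Normal ∧ IsMulCommutative B ∧ ∀ b ∈ B, b ^ 2 ^ 2 = 1})
    ⟨⊥, inferInstance, inferInstance, fun b hb => by rw [mem_bot.1 hb, one_pow]⟩
  exact ⟨W, pg, no, h1, fun a ha b hb => congrArg Subtype.val (h2.is_comm.comm ⟨a, ha⟩ ⟨b, hb⟩), h3, fun x hx e =>
    Transfer.mem_of_maximal_abelian_exponent pg (n := 2) (by decide) h2 h3
      (fun B a b c l => le_antisymm (hm ⟨a, b, c⟩ l) l) hx e⟩

theorem P4 {H N : Subgroup (Equiv.Perm (Fin 4))} (pg : IsPGroup 2 H) (h : ∀ x ∈ H, x * x ∈ N) : #H ≤ 4 * #N := by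
  obtain ⟨n, hn⟩ := pg.exists_card_eq
  have d := H.card_subgroup_dvd_card
  rw [Nat.card_perm, Nat.card_fin, hn] at d
  have : n ≤ 3 := by
    by_contra! l
    exact absurd ((pow_dvd_pow 2 l).trans d) (by decide)
  have : 0 < #N := Nat.card_pos
  rcases eq_or_ne N ⊥ with rfl | e
  · rcases H.bot_or_exists_ne_one with rfl | ⟨g, hg, g1⟩
    · simp
    have := Nat.card_le_card_of_injective (fun x : H => (⟨x, mem_bot.1 (h x x.2), mem_bot.1 (h _ (mul_mem hg x.2))⟩ :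
      {x : Equiv.Perm (Fin 4) // x * x = 1 ∧ g * x * (g * x) = 1})) fun x y e => Subtype.ext (congrArg (·.1) e)
    rw [Nat.card_eq_fintype_card (α := {x // _ ∧ _}), Fintype.card_subtype] at this
    have := this.trans ((by decide +kernel : ∀ g : Equiv.Perm (Fin 4), g ≠ 1 → g * g = 1 →
      (Finset.univ.filter fun x => x * x = 1 ∧ g * x * (g * x) = 1).card ≤ 6) g g1 (mem_bot.1 (h g hg)))
    rw [hn] at this ⊢
    interval_cases n <;> omega
  · have := (one_lt_card_iff_ne_bot N).2 e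
    rw [hn]
    interval_cases n <;> omega

namespace Al
variable (A : Al W)
include A

def W0 : Subgroup G where
  carrier := {w | w ∈ W ∧ w * w = 1}
  one_mem' := ⟨one_mem _, one_mul 1⟩
  mul_mem' := fun {a b} ha hb => ⟨mul_mem ha.1 hb.1, by
    rw [mul_assoc, ← mul_assoc b, ← A.ab a ha.1 b hb.1, mul_assoc, hb.2, mul_one, ha.2]⟩
  inv_mem' := fun {a} ha => ⟨inv_mem ha.1, by rw [← mul_inv_rev, ha.2, inv_one]⟩

theorem n0 : A.W0.Normal := ⟨fun w hw g => ⟨A.nl.conj_mem _ hw.1 g, by rw [conj_mul, hw.2, mul_one, mul_inv_cancel]⟩⟩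
theorem c0 : #A.W0 ≤ 4 := A.no _ A.n0 (fun _ ha _ hb => A.ab _ ha.1 _ hb.1) fun _ ha => ha.2
theorem WC : W ≤ C[W] := fun a ha b hb => A.ab b hb a ha
theorem m0 (hu : u ∈ C[W]) (e : u * u = 1) : u ∈ A.W0 :=
  ⟨A.al u hu (by rw [p4, e, one_mul]), e⟩
theorem s0 (hu : u ∈ W) : u * u ∈ A.W0 := ⟨mul_mem hu hu, by rw [← A.e4 u hu, p4]⟩

theorem pw (hu : u ∈ C[W]) (h : ∀ n : ℕ, u ^ n ∈ W → u ^ n * u ^ n = 1) : u * u = 1 := by
  obtain ⟨m, hm⟩ := A.pg u
  induction m with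
  | zero => rw [show u = 1 by simpa using hm, one_mul]
  | succ m ih =>
    rcases m with _ | m
    · rwa [← pow_two]
    refine ih ?_
    have := h (2 ^ m) (A.al _ (pow_mem hu _) (by rw [← pow_mul, ← hm]; congr 1; ring))
    rwa [← pow_two, ← pow_mul, ← pow_succ] at this

theorem invC (hc : c ∈ C[W]) (hu : u ∈ C[W]) (e : c * u * c⁻¹ = u⁻¹) : u * u = 1 := A.pw hu fun n hn => by
  have : c * u ^ n * c⁻¹ = (u ^ n)⁻¹ := by rw [← conj_pow, e, inv_pow]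
  rw [← hc _ hn, mul_inv_cancel_right] at this
  exact mul_eq_one_iff_eq_inv.2 this

theorem sqf (hc : c ∈ C[W]) (hu : u ∈ C[W]) (e : c * c = u * u) : c⁻¹ * u ∈ A.W0 :=
  A.m0 (mul_mem (inv_mem hc) hu) (A.invC hc (mul_mem (inv_mem hc) hu) (by
    calc c * (c⁻¹ * u) * c⁻¹ = u⁻¹ * (u * u) * c⁻¹ := by group
      _ = _ := by rw [← e]; group))

theorem fin (l : N ≤ H) (h : ∀ x ∈ H, x * x ∈ N) (π : G →* Q) (hk : π.ker = C[W])
    (r : 4 * #(N.map π) < #(H.map π) → #(H.map π) ≤ 8 * #(N.map π) ∧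
      ∃ x ∈ H, x * x ∈ C[W] ∧ ∀ u, π u = π x → u ^ 4 ≠ 1) : #H ≤ 2 ^ 4 * #N := by
  have a := card_inf_mul_relIndex C[W] H
  have b := card_inf_mul_relIndex C[W] N
  nth_rw 2 [← hk] at a b
  rw [relIndex_ker] at a b
  have c0 := A.c0
  have s : ∀ T : Set G, (∀ c ∈ C[W] ⊓ H, c * c ∈ T) → #(C[W] ⊓ H) ≤ Nat.card T * 4 := fun T hT =>
    (fib _ (fun c => c * c) T A.W0 hT fun c hc u hu e => A.sqf hc.1 hu.1 e).trans (Nat.mul_le_mul_left _ c0)
  have s1 : #(C[W] ⊓ H) ≤ #(C[W] ⊓ N) * 4 := s (C[W] ⊓ N : Subgroup G) fun c hc => ⟨mul_mem hc.1 hc.1, h c hc.2⟩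
  rw [← a, ← b]
  by_cases c : 4 * #(N.map π) < #(H.map π)
  · obtain ⟨c, x, hx, xC, x4⟩ := r c
    suffices #(C[W] ⊓ H) ≤ 2 * #(C[W] ⊓ N) by nlinarith [Nat.mul_le_mul this c]
    by_cases e : ∃ c ∈ C[W] ⊓ H, c * c = x * x
    · obtain ⟨c, hc, e⟩ := e
      have c1 : π c = 1 := hk.ge hc.1
      have i : c * (x * c⁻¹) * c⁻¹ = (x * c⁻¹)⁻¹ := by
        calc c * (x * c⁻¹) * c⁻¹ = c * x * (c * c)⁻¹ := by group
          _ = _ := by rw [e]; group
      refine absurd ?_ (x4 (x * c⁻¹) (by simp [c1]))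
      rw [p4]
      refine A.invC hc.1 (hk.le ?_) (by rw [← conj_mul, i, ← mul_inv_rev])
      simpa [MonoidHom.mem_ker, c1] using hk.ge xC
    have s2 := s ((C[W] ⊓ N : Subgroup G) \ {x * x}) fun c hc => ⟨⟨mul_mem hc.1 hc.1, h c hc.2⟩, fun e' => e ⟨c, hc, e'⟩⟩
    have s3 : Nat.card ↥(((C[W] ⊓ N : Subgroup G) : Set G) \ {x * x}) < #(C[W] ⊓ N) :=
      Set.ncard_lt_ncard (Set.diff_singleton_ssubset.2 ⟨xC, h x hx⟩)
    have d := card_mul_relIndex (inf_le_inf_left C[W] l)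
    obtain ⟨n, hn⟩ : ∃ n, (C[W] ⊓ N).relIndex (C[W] ⊓ H) = 2 ^ n := (A.pg.to_subgroup _).index _
    rw [hn] at d
    rcases n with _ | _ | n
    · omega
    · omega
    · have : 0 < 2 ^ n := by positivity
      rw [show 2 ^ (n + 1 + 1) = 4 * 2 ^ n by ring] at d
      nlinarith
  · nlinarith [Nat.mul_le_mul s1 (not_lt.1 c)]

theorem small (l : N ≤ H) (h : ∀ x ∈ H, x * x ∈ N) (ha : a ∈ W) (s : ∀ w ∈ W, w * w = 1 ∨ w * w = a * a) :
    #H ≤ 2 ^ 4 * #N := by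
  classical
  have i : ∀ g, g * a * g⁻¹ * (g * a * g⁻¹) = a * a := fun g => (s _ (A.nl.conj_mem a ha g)).elim (fun e => by
    rw [conj_mul, conj_eq_one_iff] at e
    rw [conj_mul, e, mul_one, mul_inv_cancel]) id
  let X : SubMulAction (ConjAct G) G := ⟨{w | w ∈ W ∧ w * w = a * a}, fun g w hw => ⟨A.nl.conj_mem w hw.1 _, by
    rw [ConjAct.smul_def, conj_mul, hw.2, ← conj_mul, i]⟩⟩
  have cX : Nat.card X ≤ 4 := (Nat.card_le_card_of_injective (fun w : X => (⟨a⁻¹ * w, A.sqf (A.WC ha) (A.WC w.2.1) w.2.2.symm⟩ :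
    A.W0)) fun x y e => Subtype.ext (mul_left_cancel (congrArg (·.1) e))).trans A.c0
  have := Fintype.ofFinite X
  obtain ⟨ι⟩ : Nonempty (X ↪ Fin 4) := Function.Embedding.nonempty_of_card_le (by simpa using cX)
  refine A.fin l h ((Equiv.Perm.viaEmbeddingHom ι).comp ((MulAction.toPermHom _ X).comp ConjAct.toConjAct.toMonoidHom)) ?_
    fun c => absurd c (not_lt.2 (P4 ((A.pg.to_subgroup H).map _) ?_))
  · ext g
    rw [MonoidHom.mem_ker, MonoidHom.comp_apply, map_eq_one_iff _ (Equiv.Perm.viaEmbeddingHom_injective ι)]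
    refine ⟨fun e w hw => ?_, fun e => Equiv.ext fun w => Subtype.ext (mul_inv_eq_of_eq_mul (e w w.2.1).symm)⟩
    have m : ∀ w ∈ W, w * w = a * a → w * g = g * w := fun w hw e' =>
      (eq_mul_of_mul_inv_eq (congrArg (fun σ : Equiv.Perm X => (σ ⟨w, hw, e'⟩).1) e)).symm
    refine (s w hw).elim (fun e' => mul_left_cancel (a := a) ?_) (m w hw)
    rw [← mul_assoc, m _ (mul_mem ha hw) (by rw [mul_assoc, ← mul_assoc w, A.ab w hw a ha, mul_assoc, e', mul_one]),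
      ← mul_assoc, ← m a ha rfl, mul_assoc]
  · rintro _ ⟨x, hx, rfl⟩
    exact ⟨_, h x hx, map_mul ..⟩

end Al
end Cfsg.Agent.MacW
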