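import Cfsg.Agent.MacW.B

/-! MacWilliams' four-generator theorem (helper20): the case `W ≅ Z₄ × Z₄`, and the theorem `macw`. -/

set_option autoImplicit false
set_option linter.unusedSectionVars false

namespace Cfsg.Agent.MacW
open Subgroup Cfsg.Agent.BG Cfsg.Agent.Scn
open scoped commutatorElement

variable {G : Type*} [Group G] [Finite G] {W H N : Subgroup G} {a b : G}

theorem Al.model (A : Al W) (ha : a ∈ W) (hb : b ∈ W) (hz : ∀ g, g * (a * a) * g⁻¹ = a * a) (a1 : a * a ≠ 1) (b1 : b * b ≠ 1)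
    (ab : b * b ≠ a * a) : ∃ (e : V → G) (π : G →* M), (∀ u v, e (u + v) = e u * e v) ∧ Function.Injective e ∧
      (∀ w, w ∈ W ↔ ∃ v, e v = w) ∧ ∀ g v, g * e v * g⁻¹ = e (act (π g) v) := by
  let e : V → G := fun v => a ^ v.1.val * b ^ v.2.val
  have c : Commute a b := A.ab a ha b hb
  have ad : ∀ u v, e (u + v) = e u * e v := fun u v => by
    simp only [e, Prod.fst_add, Prod.snd_add, ZMod.val_add]
    rw [← pow_eq_pow_mod _ (A.e4 a ha), ← pow_eq_pow_mod _ (A.e4 b hb), pow_add, pow_add,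
      (c.symm.pow_pow _ _).mul_mul_mul_comm]
  have e0 : e 0 = 1 := by simp [e]
  have ns : ∀ (n : ℕ) v, e (n • v) = e v ^ n := fun n v => by
    induction n with
    | zero => rw [zero_nsmul, e0, pow_zero]
    | succ n ih => rw [succ_nsmul, ad, ih, pow_succ]
  have ea : e (1, 0) = a := by change a ^ 1 * b ^ 0 = a; simp
  have eb : e (0, 1) = b := by change a ^ 0 * b ^ 1 = b; simp
  have e2 : e (2, 0) = a * a := by rw [← ea, ← ad]; rfl
  have e3 : e (0, 2) = b * b := by rw [← eb, ← ad]; rfl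
  have i0 : ∀ v, v + v = 0 → e v = 1 → v = 0 := fun v hv h => by
    rcases (by decide +kernel : ∀ v : V, v + v = 0 → v = 0 ∨ v = (2, 0) ∨ v = (0, 2) ∨ v = (2, 0) + (0, 2)) v hv with
      rfl | rfl | rfl | rfl
    · rfl
    · exact absurd (e2 ▸ h) a1
    · exact absurd (e3 ▸ h) b1
    · rw [ad, e2, e3] at h
      exact absurd (mul_left_cancel (h.trans (A.s0 ha).2.symm)) ab
  have inj : Function.Injective e := fun u v h => sub_eq_zero.1 (by
    have : e (u - v) = 1 := mul_right_cancel (b := e v) (by rw [← ad, sub_add_cancel, one_mul, h])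
    exact i0 _ (i0 _ ((by decide +kernel : ∀ v : V, v + v + (v + v) = 0) _) (by rw [ad, this, one_mul])) this)
  have eW : ∀ v, e v ∈ W := fun v => mul_mem (pow_mem ha _) (pow_mem hb _)
  have sj := (Function.Injective.bijective_of_nat_card_le (f := fun v => (⟨e v, eW v⟩ : W))
    (fun u v h => inj (congrArg (·.1) h)) (by
      have := fib W (fun c => c * c) A.W0 A.W0 (fun _ => A.s0) fun c hc u hu e => A.sqf (A.WC hc) (A.WC hu) e
      rw [Nat.card_prod, Nat.card_zmod]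
      exact this.trans (Nat.mul_le_mul A.c0 A.c0))).2
  have mW : ∀ w, w ∈ W ↔ ∃ v, e v = w := fun w =>
    ⟨fun hw => (sj ⟨w, hw⟩).imp fun _ h => congrArg (·.1) h, fun ⟨v, h⟩ => h ▸ eW v⟩
  have ex : ∀ g, ∃ s, ∀ v, g * e v * g⁻¹ = e (act s v) := fun g => by
    obtain ⟨u, hu⟩ := (mW _).1 (A.nl.conj_mem a ha g)
    obtain ⟨v, hv⟩ := (mW _).1 (A.nl.conj_mem b hb g)
    obtain ⟨s, h1, h2⟩ := act_ex u v (inj (by rw [ad, hu, conj_mul, hz, e2]))
      (fun h => b1 (by have := ad v v; rwa [h, e0, hv, conj_mul, eq_comm, conj_eq_one_iff] at this))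
      fun h => ab (by have := ad v v; rw [h, e2, hv, conj_mul, ← hz g] at this; simpa using this.symm)
    exact ⟨s, fun w => by rw [act_lin, ad, ns, ns, h1, h2, hu, hv, conj_pow, conj_pow, conj_mul]⟩
  choose p hp using ex
  exact ⟨e, MonoidHom.mk' p fun g h => act_inj _ _ fun v => inj (by rw [← hp, act_mul, ← hp, ← hp]; group), ad, inj, mW, hp⟩

theorem Al.big (A : Al W) (l : N ≤ H) (h : ∀ x ∈ H, x * x ∈ N) {e : V → G} {π : G →* M} (ad : ∀ u v, e (u + v) = e u * e v)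
    (inj : Function.Injective e) (mW : ∀ w, w ∈ W ↔ ∃ v, e v = w) (hp : ∀ g v, g * e v * g⁻¹ = e (act (π g) v)) :
    #H ≤ 2 ^ 4 * #N := by
  have c4 : 4 ≤ #A.W0 := by
    have a := fib W (fun c => c * c) A.W0 A.W0 (fun _ => A.s0) fun c hc u hu e => A.sqf (A.WC hc) (A.WC hu) e
    have b := (Nat.card_le_card_of_injective (fun v => (⟨e v, (mW _).2 ⟨v, rfl⟩⟩ : W)) fun u v h => inj (congrArg (·.1) h)).trans a
    rw [Nat.card_prod, Nat.card_zmod] at b
    exact Nat.mul_self_le_mul_self_iff.1 b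
  have e0 : e 0 = 1 := mul_left_cancel (a := e 0) (by rw [← ad, add_zero, mul_one])
  have hk : ∀ g, π g = 1 ↔ g ∈ C[W] := fun g => ⟨fun h w hw => by
    obtain ⟨v, rfl⟩ := (mW w).1 hw
    rw [eq_comm, ← mul_inv_eq_iff_eq_mul, hp, h, act_one], fun h => act_inj _ _ fun v => inj (by
      rw [← hp, act_one, ← h _ ((mW _).2 ⟨v, rfl⟩), mul_inv_cancel_right])⟩
  have pw : ∀ u, π u = 1 → (∀ n : ℕ, ∀ v, e v = u ^ n → v + v = 0) → u * u = 1 := fun u hu h => A.pw ((hk u).1 hu) fun n hn => by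
    obtain ⟨v, hv⟩ := (mW _).1 hn
    rw [← hv, ← ad, h n v hv, e0]
  have fx : ∀ {x u : G} {n : ℕ} {v}, Commute x u → e v = u ^ n → act (π x) v = v := fun c hv =>
    inj (by rw [← hp, hv, (c.pow_right _).eq, mul_inv_cancel_right])
  have sq : ∀ x, π x ∈ K → π (x * x) = 1 := fun x hx => by rw [map_mul, (gK _ hx).1]
  have cD : ∀ x, π x ∈ K → ∀ w ∈ A.W0, w * x = x * w := fun x hx w hw => by
    obtain ⟨v, rfl⟩ := (mW _).1 hw.1
    rw [eq_comm, ← mul_inv_eq_iff_eq_mul, hp, (gK _ hx).2.2 v (inj (by rw [ad, hw.2, e0]))]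
  have F1 : ∀ x, good (π x) → x ^ 4 = 1 → ∃ t, π t = π x ∧ t * t = 1 ∧ ∀ g, π g * π t = π t * π g → ⁅g, t⁆ ∈ A.W0 := by
    intro x gx x4
    obtain ⟨xK, -, h1, h2, -⟩ := g1 _ gx
    rw [p4] at x4
    obtain ⟨u, hu⟩ := (mW _).1 (A.m0 ((hk _).1 (sq x xK)) x4).1
    obtain ⟨v, hv⟩ := h1 u (inj (by rw [ad, hu, x4, e0]))
    have t2 : x * e v * (x * e v) = 1 := by rw [← e0, ← hv, ad, ad, ← hp, hu]; group
    have pt : π (x * e v) = π x := by rw [map_mul, (hk _).2 (A.WC ((mW _).2 ⟨v, rfl⟩)), mul_one]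
    refine ⟨_, pt, t2, fun g hg => ?_⟩
    generalize x * e v = t at *
    have p1 : π ⁅g, t⁆ = 1 := by rw [map_commutatorElement, commutatorElement_eq_one_iff_mul_comm, hg]
    refine A.m0 ((hk _).1 p1) (pw _ p1 fun n w hw => h2 w (inj (mul_right_cancel (b := e w) ?_)))
    rw [← pt, ← hp, ← ad, neg_add_cancel, e0, hw, ← conj_pow, mul_eq_one_iff_eq_inv, ← inv_pow]
    congr 1
    calc t * ⁅g, t⁆ * t⁻¹ = t * g * (t * t * t⁻¹) * g⁻¹ * (t * t)⁻¹ := by rw [commutatorElement_def]; group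
      _ = _ := by rw [t2, commutatorElement_def]; group
  refine A.fin l h π (Subgroup.ext hk) fun c => ?_
  have hs : ∀ x ∈ H.map π, x * x ∈ N.map π := by
    rintro _ ⟨x, hx, rfl⟩; exact ⟨_, h x hx, map_mul ..⟩
  obtain ⟨⟨_, ⟨x, hx, rfl⟩, gx⟩, _, ⟨y, rfl⟩, gy, cy⟩ := TS hs (map_le_range π H) c
  have := A.n0
  have F2 : ∀ x, π x = π y → x ^ 4 ≠ 1 := fun x e x4 => by
    obtain ⟨t, h1, h2, h3⟩ := F1 x (e ▸ gy) x4
    rw [e] at h1
    exact (g1 _ gy).2.1 (h1 ▸ (hk t).2 (A.WC (mem_of A.no c4 (fun _ ha _ hb => A.ab _ ha.1 _ hb.1) (fun _ ha => ha.2) h2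
      (cD t (h1 ▸ (g1 _ gy).1)) fun g => h3 g (h1 ▸ cy _ ⟨g, rfl⟩)).1))
  have NG : ∀ x, good (π x) → x ^ 4 ≠ 1 := fun x gx x4 => by
    by_cases e : π x = π y
    · exact F2 x e x4
    obtain ⟨t, h1, h2, h3⟩ := F1 x gx x4
    have yK := (g1 _ gy).1
    have m := h3 y ((gK _ yK).2.1 _ (h1 ▸ (g1 _ gx).1))
    have ct : Commute t (y * y) := by
      have e1 : t * y = ⁅y, t⁆⁻¹ * y * t := by rw [commutatorElement_def]; group
      have e2 := cD y yK _ (inv_mem m)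
      have e3 := (inv_mem m).2
      generalize ⁅y, t⁆⁻¹ = c at e1 e2 e3
      calc t * (y * y) = c * y * t * y := by rw [← mul_assoc, e1]
        _ = c * y * (t * y) := mul_assoc ..
        _ = c * (y * c) * y * t := by rw [e1]; group
        _ = y * y * t := by rw [← e2, ← mul_assoc, e3, one_mul]
    exact F2 y rfl ((p4 y).trans (pw _ (sq y yK) fun n v hv => (g1 _ gx).2.2.2.2 _ gy e v (h1 ▸ fx ct hv)
      (fx ((Commute.refl y).mul_right (Commute.refl y)) hv)))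
  refine ⟨T8 hs ?_, x, hx, (hk _).1 (sq x (g1 _ gx).1), fun u hu => NG u (hu ▸ gx)⟩
  rintro ⟨x, -, e7⟩
  exact NG x (e7 ▸ g7.1) ((p4 x).trans (pw _ (sq x (e7 ▸ (g1 _ g7.1).1)) fun n v hv =>
    g7.2 v (e7 ▸ fx ((Commute.refl x).mul_right (Commute.refl x)) hv)))

theorem sr_top {k : ℕ} (h : ∀ H N : Subgroup G, N ≤ H → (∀ x ∈ H, x * x ∈ N) → #H ≤ 2 ^ k * #N) : SectionalPRankLE 2 k G := by
  intro H N _ A _ hA
  have i := H.subtype_injective
  have := h _ _ (map_mono (f := H.subtype) (QuotientGroup.le_comap_mk' N A)) ?_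
  · rw [card_map_of_injective i, card_map_of_injective i, Solv.card_comap_mk', mul_comm] at this
    exact Nat.le_of_mul_le_mul_right this Nat.card_pos
  · rintro _ ⟨x, hx, rfl⟩
    exact ⟨x * x, (QuotientGroup.eq_one_iff _).1 (by simpa [pow_two] using hA _ hx), map_mul ..⟩

theorem macw (pg : IsPGroup 2 G) (no : NoE8 G) (l : N ≤ H) (h : ∀ x ∈ H, x * x ∈ N) : #H ≤ 2 ^ 4 * #N := by
  obtain ⟨W, A⟩ := exists_Al pg no
  by_cases s : ∃ a ∈ W, ∀ w ∈ W, w * w = 1 ∨ w * w = a * a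
  · obtain ⟨a, ha, s⟩ := s
    exact A.small l h ha s
  push Not at s
  obtain ⟨a, ha, a1, -⟩ := s 1 (one_mem _)
  obtain ⟨b, hb, b1, ab⟩ := s a ha
  have en := four_enum A.c0 (fun _ ha => ha.2) (A.s0 ha) (A.s0 hb) a1 b1 ab.symm
  obtain ⟨z, ⟨hz, -, zc⟩, z1⟩ := (bot_or_exists_ne_one _).resolve_left (meet_center_nil (pgroup_nil (pg.to_subgroup ⊤))
    (N := A.W0) ⟨le_top, have := A.n0; norm_of_normal _ _⟩ fun e => a1 (mem_bot.1 (e.le (A.s0 ha))))
  obtain ⟨c, hc, rfl⟩ : ∃ c ∈ W, c * c = z := by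
    rcases en z hz with rfl | rfl | rfl | rfl
    exacts [absurd rfl z1, ⟨a, ha, rfl⟩, ⟨b, hb, rfl⟩,
      ⟨a * b, mul_mem ha hb, (Commute.mul_mul_mul_comm (A.ab b hb a ha) a b)⟩]
  obtain ⟨d, hd, d1, cd⟩ := s c hc
  obtain ⟨e, π, h1, h2, h3, h4⟩ := A.model hc hd (fun g => mul_inv_eq_of_eq_mul (zc g trivial)) z1 d1 cd
  exact A.big l h h1 h2 h3 h4

end Cfsg.Agent.MacW
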