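import Cfsg.Agent.MacW.E16

/-! Sectional rank from a Sylow 2-subgroup (`sr_syl`), and 2-groups with `C(b) = T` for a four-group `B` (`db`). -/

set_option autoImplicit false
set_option linter.unusedSectionVars false

namespace Cfsg.Agent.MacW
open Subgroup Cfsg.Agent.BG

variable {G : Type*} [Group G] [Finite G] {B T H L : Subgroup G} {r : G}

theorem sr_syl {k : ℕ} (S : Sylow 2 G) (hS : ∀ H L : Subgroup S, (∀ x ∈ H, x * x ∈ L) → #H ≤ 2 ^ k * #L) :
    SectionalPRankLE 2 k G := by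
  intro H N _ A _ hA
  let f := (QuotientGroup.mk' N).subgroupComap A
  have hf : Function.Surjective f := MonoidHom.subgroupComap_surjective_of_surjective _ _ (QuotientGroup.mk'_surjective N)
  obtain ⟨P⟩ : Nonempty (Sylow 2 (A.comap (QuotientGroup.mk' N))) := inferInstance
  have tp : (P : Subgroup _).map f = ⊤ := ((P.mapSurjective hf).3 (fun a => ⟨1, Subtype.ext (Subtype.ext (hA a.1 a.1.2))⟩)
    le_top).symm
  let i := (H.subtype.comp (A.comap (QuotientGroup.mk' N)).subtype).comp (P : Subgroup _).subtype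
  have hi : Function.Injective i := (H.subtype_injective.comp (subtype_injective _)).comp (subtype_injective _)
  obtain ⟨Q, hQ⟩ := (P.2.of_equiv (MonoidHom.ofInjective hi)).exists_le_sylow
  let j := (Q.equiv S).toMonoidHom.comp (i.codRestrict Q fun x => hQ ⟨x, rfl⟩)
  have hj : Function.Injective j := (Q.equiv S).injective.comp fun a b e => hi (congrArg (fun x : Q => x.1) e)
  have := hS (map j ⊤) ((f.ker.subgroupOf P).map j) (by
    rintro _ ⟨x, -, rfl⟩
    exact ⟨x * x, (map_mul f x.1 x.1).trans (Subtype.ext ((pow_two _).symm.trans (hA _ (f x).2))), map_mul ..⟩)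
  rw [card_map_of_injective hj, card_map_of_injective hj, card_top, ← (f.ker.subgroupOf P).card_mul_index, mul_comm] at this
  have := Nat.le_of_mul_le_mul_right this Nat.card_pos
  rwa [show (f.ker.subgroupOf P).index = _ from relIndex_ker _ f, tp, card_top] at this

theorem db (pg : IsPGroup 2 G) (BT : B ≤ T) (cB : #B = 4) (e2 : ∀ b ∈ B, b * b = 1) (hC : ∀ b ∈ B, b ≠ 1 → C1[b] = T)
    (hr : r ∈ T) (c : #T ≤ 8 * #(zpowers r)) (ab : (∀ a ∈ T, ∀ b ∈ T, a * b = b * a) → #T ≤ 16) (h : ∀ x ∈ H, x * x ∈ L) :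
    #H ≤ 2 ^ 4 * #L := by
  rcases eq_or_ne T ⊤ with rfl | n
  · have := (mulle (le_top : H ≤ ⊤) (le_top : zpowers r ≤ ⊤)).trans (Nat.mul_le_mul (cyc_le h r) c)
    have : 0 < #(zpowers r) := Nat.card_pos
    nlinarith
  obtain ⟨s, -, sN, ns, ss⟩ := up pg n.lt_top
  have z : ∀ b ∈ B, T ≤ C1[b] := fun b hb => by
    by_cases e : b = 1
    · exact fun t _ => mem_cent1.2 (by rw [e, mul_one, one_mul])
    · exact (hC b hb e).ge
  have z' : ∀ b ∈ cj s B, T ≤ C1[b] := by
    rintro _ ⟨b, hb, rfl⟩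
    exact (cj_of_norm sN).ge.trans ((cj_mono s (z b hb)).trans (C1_conj s b).ge)
  have F : cj s B ≤ T := (cj_mono s BT).trans (cj_of_norm sN).le
  have i : B ⊓ cj s B = ⊥ := eq_bot_iff.2 fun _ ⟨hb', b, hb, e⟩ => by
    subst e
    change s * b * s⁻¹ ∈ B at hb'
    change s * b * s⁻¹ = 1
    by_contra b1
    have k : s * (b * (s * b * s⁻¹)) = b * (s * b * s⁻¹) * s := by
      calc s * (b * (s * b * s⁻¹)) = s * b * s⁻¹ * (s * s * b) * s⁻¹ := by group
        _ = s * b * s⁻¹ * b * s := by rw [mem_cent1.1 (z b hb ss)]; group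
        _ = _ := by rw [mem_cent1.1 (z b hb (BT hb'))]
    by_cases e : b * (s * b * s⁻¹) = 1
    · have e := mul_left_cancel (e.trans (e2 b hb).symm)
      exact ns ((hC b hb (e ▸ b1)).le (mem_cent1.2 (mul_inv_eq_iff_eq_mul.1 e)))
    · exact ns ((hC _ (mul_mem hb hb') e).le (mem_cent1.2 k))
  have cc : cj s B ≤ C[B] := fun a ha b hb => (mem_cent1.1 (z b hb (F ha))).symm
  have cE := card_sup_TI (.inr (cents_norm cc)) i
  rw [card_cj, cB] at cE
  have mE := fun x => mem_sup_norml (x := x) (cents_norm cc)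
  have zE : T ≤ C[B ⊔ cj s B] := fun t ht x hx => by
    obtain ⟨a, ha, b, hb, rfl⟩ := (mE x).1 hx
    rw [mul_assoc, ← mem_cent1.1 (z' b hb ht), ← mul_assoc, ← mem_cent1.1 (z a ha ht), mul_assoc]
  have eE : ∀ x ∈ B ⊔ cj s B, x * x = 1 := fun x hx => by
    obtain ⟨a, ha, _, ⟨b, hb, rfl⟩, rfl⟩ := (mE x).1 hx
    rw [← Commute.mul_mul_mul_comm (cc ⟨b, hb, rfl⟩ a ha), e2 a ha, ← map_mul, e2 b hb, map_one, one_mul]
  have rE : zpowers r ≤ C[B ⊔ cj s B] := (zpowers_le.2 hr).trans zE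
  have c1 := card_sup_mul_inf (.inr (cents_norm rE))
  have c2 : #((B ⊔ cj s B) ⊓ zpowers r) ≤ 2 := by simpa using cyc_le (L := ⊥) eE r
  have c3 : (B ⊔ cj s B) ⊔ zpowers r = T := eq_of_le_of_card_ge (sup_le (sup_le BT F) (zpowers_le.2 hr)) (by
    rw [cE] at c1; nlinarith)
  have := ab fun a ha b hb => by
    obtain ⟨x, hx, _, ⟨i, rfl⟩, rfl⟩ := (mem_sup_norml (cents_norm rE)).1 (c3.ge ha)
    obtain ⟨y, hy, _, ⟨j, rfl⟩, rfl⟩ := (mem_sup_norml (cents_norm rE)).1 (c3.ge hb)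
    exact (Commute.mul_left (zE hb x hx) (Commute.mul_right (zE (zpow_mem hr i) y hy).symm (Commute.zpow_zpow_self r i j))).eq
  have c4 : B ⊔ cj s B = T := eq_of_le_of_card_ge (sup_le BT F) (by omega)
  exact e16 pg (c4 ▸ eE) (c4 ▸ cE) BT cB (fun b hb b1 x e => (hC b hb b1).le (mem_cent1.2 e)) h

end Cfsg.Agent.MacW
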