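import Cfsg.Agent.MacW.C

/-! Counting tools (`mulle`, `pw2`, `cyc2`, `dbl`) and 2-groups with an `E₁₆ = C(b)` for all `b` in a four-group (`e16`). -/

set_option autoImplicit false
set_option linter.unusedSectionVars false

namespace Cfsg.Agent.MacW
open Subgroup Cfsg.Agent.BG
open scoped commutatorElement

variable {G : Type*} [Group G] [Finite G] {A B X T H L M : Subgroup G} {x r : G}

theorem mulle (hA : A ≤ X) (hB : B ≤ X) : #A * #B ≤ #(A ⊓ B) * #X := by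
  rw [← card_inf_mul_relIndex A B, ← card_mul_relIndex hA, mul_left_comm]
  exact Nat.mul_le_mul_left _ (Nat.mul_le_mul_left _ (relIndex_le_of_le_right hB index_ne_zero_of_finite))

theorem dbl (h : A ≤ B) (hx : x ∈ B) (n : x ∉ A) : 2 * #A ≤ #B := by
  rw [← card_mul_relIndex h, mul_comm]
  exact Nat.mul_le_mul_left _ (one_lt_index_of_ne_top fun e => n (mem_subgroupOf.1 (e.ge (mem_top ⟨x, hx⟩))))

theorem pw2 (pg : IsPGroup 2 G) (n : x ∉ T) : ∃ m : ℕ, x ^ m ∉ T ∧ x ^ m * x ^ m ∈ T := by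
  obtain ⟨k, hk⟩ := pg x
  replace hk : x ^ 2 ^ k ∈ T := hk ▸ one_mem _
  induction k with
  | zero => exact absurd (by simpa using hk) n
  | succ k ih =>
    by_cases e : x ^ 2 ^ k ∈ T
    · exact ih e
    · exact ⟨_, e, by rwa [← pow_two, ← pow_mul, ← pow_succ]⟩

theorem up (pg : IsPGroup 2 G) (h : T < M) : ∃ s ∈ M, s ∈ N[T] ∧ s ∉ T ∧ s * s ∈ T := by
  obtain ⟨x, hx, n⟩ := SetLike.exists_of_lt (nilpotent_proper_norm (pgroup_nil (pg.to_subgroup M)) h)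
  obtain ⟨m, h1, h2⟩ := pw2 pg n
  exact ⟨_, pow_mem hx.1 m, pow_mem hx.2 m, h1, h2⟩

theorem cyc2 (r : G) : Nat.card {y | y ∈ zpowers r ∧ y * y = 1} ≤ 2 := by
  classical
  have := Fintype.ofFinite (zpowers r)
  refine (Nat.card_le_card_of_injective (fun y => (⟨⟨y.1, y.2.1⟩, Subtype.ext ((pow_two y.1).trans y.2.2)⟩ :
    {a : zpowers r // a ^ 2 = 1})) fun a b e => Subtype.ext (congrArg (·.1.1) e)).trans ?_
  rw [Nat.card_eq_fintype_card, Fintype.card_subtype]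
  exact IsCyclic.card_pow_eq_one_le two_pos

theorem sqab {a b : G} (c : a * b = b * a) (e : a * a = b * b) : a⁻¹ * b * (a⁻¹ * b) = 1 := by
  calc a⁻¹ * b * (a⁻¹ * b) = a⁻¹ * a⁻¹ * (a * b) * (a⁻¹ * b) := by group
    _ = (a * a)⁻¹ * (b * b) := by rw [c]; group
    _ = 1 := by rw [e, inv_mul_cancel]

theorem cm2 {a b : G} (h1 : a * a = 1) (h2 : b * b = 1) (h3 : a * b * (a * b) = 1) : a * b = b * a := by
  rw [← inv_eq_of_mul_eq_one_right h3, mul_inv_rev, inv_eq_of_mul_eq_one_right h1, inv_eq_of_mul_eq_one_right h2]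

theorem cyc_le (h : ∀ x ∈ H, x * x ∈ L) (r : G) : #(H ⊓ zpowers r) ≤ #L * 2 :=
  (fib (H ⊓ zpowers r) (fun x => x * x) L {y | y ∈ zpowers r ∧ y * y = 1} (fun a ha => h a ha.1) fun a ha b hb e =>
    ⟨mul_mem (inv_mem ha.2) hb.2, sqab (by
      obtain ⟨i, rfl⟩ := ha.2; obtain ⟨j, rfl⟩ := hb.2; exact (Commute.zpow_zpow_self r i j).eq) e⟩).trans
    (Nat.mul_le_mul_left _ (cyc2 r))

theorem sqh (ab : ∀ a ∈ T, ∀ b ∈ T, a * b = b * a) (e2 : ∀ a ∈ T, a * a = 1) (h : G) (Y : Set G)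
    (hY : ∀ w ∈ H ⊓ T, w * h * (w * h) ∈ Y) : #(H ⊓ T) ≤ Nat.card Y * #(T ⊓ C1[h]) :=
  fib _ (fun w => w * h * (w * h)) Y (T ⊓ C1[h] : Subgroup G) hY fun w hw w' hw' e => by
    have hu : w⁻¹ * w' ∈ T := mul_mem (inv_mem hw.2) hw'.2
    refine ⟨hu, mem_cent1.2 ?_⟩
    obtain ⟨u, rfl⟩ : ∃ u, w' = w * u := ⟨w⁻¹ * w', by group⟩
    rw [inv_mul_cancel_left] at hu ⊢
    have e1 : h * w = u * h * (w * u) := mul_right_cancel (b := h) (by simpa [mul_assoc] using e)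
    refine mul_right_cancel (b := w * u) ?_
    rw [← e1, mul_assoc, ← mul_assoc u, ← ab w hw.2 u hu, mul_assoc w, e2 u hu, mul_one]

theorem e16 (pg : IsPGroup 2 G) (e2 : ∀ a ∈ T, a * a = 1) (cT : #T = 16) (BT : B ≤ T) (cB : #B = 4)
    (hC : ∀ b ∈ B, b ≠ 1 → ∀ x, x * b = b * x → x ∈ T) (h : ∀ x ∈ H, x * x ∈ L) : #H ≤ 2 ^ 4 * #L := by
  have ab : ∀ a ∈ T, ∀ b ∈ T, a * b = b * a := fun a ha b hb => cm2 (e2 a ha) (e2 b hb) (e2 _ (mul_mem ha hb))
  have L0 : 0 < #L := Nat.card_pos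
  have c4 : ∀ h ∉ T, #(T ⊓ C1[h]) ≤ 4 := fun h n => by
    have := mulle (inf_le_left : T ⊓ C1[h] ≤ T) BT
    rw [show T ⊓ C1[h] ⊓ B = ⊥ from eq_bot_iff.2 fun b hb => by_contra fun b1 => n (hC b hb.2 b1 h (mem_cent1.1 hb.1.2).symm),
      card_bot, cB] at this
    omega
  have n4 : #N[T] ≤ 64 := by
    have hK := nil_comm_properl (pgroup_nil (pg.to_subgroup N[T])) (normG T) (fun e => by simp [e] at cT) le_rfl le_rfl
    obtain ⟨t, ht, nt⟩ := SetLike.exists_of_lt hK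
    have := dbl hK.le ht nt
    have : #N[T] ≤ 7 * 16 := by
      by_cases c : #⁅T, N[T]⁆ ≤ 7
      · obtain ⟨b, hb, b1⟩ := (bot_or_exists_ne_one B).resolve_left fun e => by simp [e] at cB
        exact (fib N[T] (fun n => ⁅b, n⁆) (⁅T, N[T]⁆ : Subgroup G) T (fun n hn => commutator_mem_commutator (BT hb) hn) fun n _ m _ e =>
          hC b hb b1 _ (by
            have e : n * b⁻¹ * n⁻¹ = m * b⁻¹ * m⁻¹ := by simpa [commutatorElement_def, mul_assoc] using e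
            calc n⁻¹ * m * b = n⁻¹ * (m * b⁻¹ * m⁻¹)⁻¹ * m := by group
              _ = _ := by rw [← e]; group)).trans (Nat.mul_le_mul c cT.le)
      have := mulle hK.le BT
      obtain ⟨b, hb, b1⟩ := (bot_or_exists_ne_one (⁅T, N[T]⁆ ⊓ B)).resolve_left fun e => by rw [e, card_bot, cB] at this; omega
      have c7 : Nat.card ↥(((⁅T, N[T]⁆ : Subgroup G) : Set G) \ {1}) < #⁅T, N[T]⁆ :=
        Set.ncard_lt_ncard (Set.diff_singleton_ssubset.2 (one_mem _))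
      exact (fib N[T] (fun n => n * b * n⁻¹) (((⁅T, N[T]⁆ : Subgroup G) : Set G) \ {1}) T (fun n hn =>
        ⟨((commg_normr T N[T] hn) b).1 hb.1, fun e => b1 (conj_eq_one_iff.1 e)⟩) fun n _ m _ e => hC b hb.2 b1 _ (by
          calc n⁻¹ * m * b = n⁻¹ * (m * b * m⁻¹) * m := by group
            _ = _ := by rw [← e]; group)).trans (Nat.mul_le_mul (by omega) cT.le)
    obtain ⟨k, hk⟩ := (pg.to_subgroup N[T]).exists_card_eq
    rw [hk] at this ⊢
    exact Nat.pow_le_pow_right two_pos (j := 6) (by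
      by_contra! l; exact absurd ((Nat.pow_le_pow_right two_pos (show 7 ≤ k from l)).trans this) (by decide))
  have rel : #(H ⊓ N[T]) ≤ 4 * #(H ⊓ T) := by
    have := (mulle (inf_le_right : H ⊓ N[T] ≤ _) (normG T)).trans (Nat.mul_le_mul_left _ n4)
    rw [inf_assoc, inf_eq_right.2 (normG T), cT] at this
    omega
  by_cases l : H ≤ N[T]
  · by_cases l' : H ≤ T
    · have := card_le_of_le l'; omega
    obtain ⟨x, hx, nx⟩ := SetLike.not_le_iff_exists.1 l'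
    have := (sqh (H := H) ab e2 x L fun w hw => h _ (mul_mem hw.1 hx)).trans (Nat.mul_le_mul_left _ (c4 x nx))
    rw [inf_eq_left.2 l] at rel
    change _ ≤ #L * 4 at this
    omega
  obtain ⟨x, hx, nx⟩ := SetLike.not_le_iff_exists.1 l
  obtain ⟨s, -, sN, ns, ss⟩ := up pg (lt_top_iff_ne_top.2 fun e : N[T] = ⊤ => nx (e.ge trivial))
  have NN : N[cj s T] = N[T] := by rw [N_cj, cj_of_norm sN]
  have T'N : cj s T ≤ N[T] := NN ▸ normG _
  have e2' : ∀ y, ∀ a ∈ cj y T, a * a = 1 := by rintro y _ ⟨a, ha, rfl⟩; rw [← map_mul, e2 a ha, map_one]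
  have le1 : ∀ h ∈ cj s T, T ⊓ cj s T ≤ T ⊓ C1[h] := fun h hh a ha =>
    ⟨ha.1, mem_cent1.2 (cm2 (e2' s a ha.2) (e2' s h hh) (e2' s _ (mul_mem ha.2 hh)))⟩
  obtain ⟨h0, hh0, n0⟩ := SetLike.not_le_iff_exists.1 fun e => ns (mem_norm_of_cj_le e)
  have c1 := (card_le_of_le (le1 h0 hh0)).trans (c4 h0 n0)
  have c2 := card_sup_mul_inf (.inr T'N)
  have c3 := card_le_of_le (sup_le (normG T) T'N)
  rw [card_cj, cT] at c2
  have c5 : #(T ⊔ cj s T) = 64 ∧ #(T ⊓ cj s T) = 4 := by constructor <;> nlinarith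
  have sup : T ⊔ cj s T = N[T] := eq_of_le_of_card_ge (sup_le (normG T) T'N) (by omega)
  have inv : ∀ y ∈ N[T], y * y = 1 → y ∈ T ∨ y ∈ cj s T := fun y hy e => by
    obtain ⟨a, ha, b, hb, rfl⟩ := (mem_sup_norml T'N).1 (sup.ge hy)
    by_cases hb' : b ∈ T
    · exact .inl (mul_mem ha hb')
    exact .inr (mul_mem ((eq_of_le_of_card_ge (le1 b hb) (c5.2 ▸ c4 b hb')).ge
      ⟨ha, mem_cent1.2 (cm2 (e2 a ha) (e2' s b hb) e)⟩).2 hb)
  have key : ∀ y, 8 ≤ #(cj y T ⊓ T) → y ∈ N[T] := fun y c => by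
    have := mulle (inf_le_right : cj y T ⊓ T ≤ T) BT
    obtain ⟨b, hb, b1⟩ := (bot_or_exists_ne_one (cj y T ⊓ T ⊓ B)).resolve_left fun e => by rw [e, card_bot, cB] at this; omega
    exact mem_norm_of_cj_le fun a ha => hC b hb.2 b1 a (cm2 (e2' y a ha) (e2' y b hb.1.1) (e2' y _ (mul_mem ha hb.1.1)))
  have two : ∀ y, 8 ≤ #(cj y T ⊓ N[T]) → y ∈ N[T] ∨ s⁻¹ * y ∈ N[T] := fun y c =>
    ((SubgroupClass.subset_union (H := cj y T ⊓ N[T]) (K := T) (L := cj s T)).1 fun v hv => inv v hv.2 (e2' y v hv.1)).imp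
      (fun l => key y (c.trans (card_le_of_le (le_inf inf_le_left l)))) fun l => key _ (c.trans (by
        rw [← card_cj s⁻¹]
        exact card_le_of_le (le_inf (cj_mul s⁻¹ y T ▸ cj_mono _ inf_le_left) ((cj_mono _ l).trans (cj_inv_cj s T).le))))
  have i2 : N[T].relIndex N[N[T]] = 2 := relIndex_eq_two_iff_exists_notMem_and'.2 ⟨s⁻¹, inv_mem sN, fun e => ns (inv_mem_iff.1 e),
    fun y hy => (two y (by rw [inf_eq_left.2 ((cj_mono y (normG T)).trans (cj_of_norm hy).le), card_cj]; omega)).symm⟩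
  have cM := card_mul_relIndex (normG N[T])
  rw [i2, ← sup, c5.1, sup] at cM
  have top : N[N[T]] = ⊤ := nilpotent_sub_norm (pgroup_nil (pg.to_subgroup ⊤)) le_top fun y hy => by
    have := mulle ((cj_mono y ((normG T).trans (normG _))).trans (cj_of_norm hy.2).le) (normG N[T])
    rw [card_cj, ← cM, cT, ← sup, c5.1, sup] at this
    exact (two y (by omega)).elim (normG _ ·) fun e => (mul_mem_cancel_left (inv_mem sN)).1 (normG _ e)
  have c6 := mulle (le_top.trans top.ge : H ≤ _) (normG N[T])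
  rw [← cM, ← sup, c5.1, sup] at c6
  have hn : s⁻¹ * x ∈ N[T] := (two x (by
    rw [inf_eq_left.2 ((cj_mono x (normG T)).trans (cj_of_norm (top.ge trivial)).le), card_cj]; omega)).resolve_left nx
  have x2 : cj x (cj s T) = T := by
    rw [← mul_inv_cancel_left s x, cj_mul, cj_of_norm (NN.ge hn), ← cj_mul, cj_of_norm ss]
  have x1 : cj x T = cj s T := by rw [← mul_inv_cancel_left s x, cj_mul, cj_of_norm hn]
  by_cases l' : H ⊓ T ≤ cj s T
  · have := (card_le_of_le (le_inf inf_le_right l')).trans c1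
    rcases eq_or_ne L ⊥ with rfl | e
    · have : H ⊓ N[T] ≤ H ⊓ T := fun y hy => ⟨hy.1, (inv y hy.2 (h y hy.1)).elim id fun e => by
        have := conj_mem_cj x e
        rwa [x2, cm2 (h x hx) (h y hy.1) (h _ (mul_mem hx hy.1)), mul_inv_cancel_right] at this⟩
      have := card_le_of_le this
      omega
    · have := (one_lt_card_iff_ne_bot L).2 e
      omega
  obtain ⟨a, ha, na⟩ := SetLike.not_le_iff_exists.1 l'
  have m1 : x * a * x⁻¹ ∈ cj s T := x1 ▸ conj_mem_cj x ha.2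
  have m2 : x * a * x⁻¹ ∉ T := fun e => na (conj_mem_cj_iff.1 (x2.ge e))
  have m3 : x * a * x⁻¹ ∈ H := mul_mem (mul_mem hx ha.1) (inv_mem hx)
  have d1 := dbl (inf_le_left : L ⊓ T ≤ L) (x := a * (x * a * x⁻¹)) (by
    convert mul_mem (h _ (mul_mem ha.1 hx)) (inv_mem (h x hx)) using 1; group) fun e => m2 ((T.mul_mem_cancel_left ha.2).1 e.2)
  generalize x * a * x⁻¹ = c at m1 m2 m3
  have d2 := (sqh (H := H) ab e2 c (L ⊓ T : Subgroup G) fun w hw => ⟨h _ (mul_mem hw.1 m3), by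
    have := mul_mem hw.2 ((T'N m1 w).1 hw.2)
    rwa [inv_eq_of_mul_eq_one_right (e2' s c m1), ← mul_assoc, ← mul_assoc, mul_assoc _ w] at this⟩).trans
    (Nat.mul_le_mul_left _ (c4 c m2))
  change _ ≤ #(L ⊓ T) * 4 at d2
  omega

end Cfsg.Agent.MacW
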