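import Cfsg.Agent.MacW.DB
import Cfsg.Agent.PGrp.MaxClass

/-! Tools for Harada's self-centralising `E₈` theorem (helper20): `Al0 W` (Alperin's maximal abelian normal subgroup of
exponent dividing 4), counting `Al0.fl`, groups with `#C(t) ≤ 4` (`rk2`), the case `C(W) = E₈`. -/

set_option autoImplicit false
set_option linter.unusedSectionVars false

namespace Cfsg.Agent.MacW
open Subgroup Cfsg.Agent.BG Cfsg.Agent.Scn
open scoped commutatorElement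

variable {G Q : Type*} [Group G] [Finite G] [Group Q] {W H L U : Subgroup G} {u v c x t : G}

theorem four' (h4 : #U ≤ 4) (hu : u ∈ U) (hv : v ∈ U) (u1 : u ≠ 1) (v1 : v ≠ 1) (uv : u ≠ v) (e1 : u * v ≠ 1) :
    ∀ w ∈ U, w = 1 ∨ w = u ∨ w = v ∨ w = u * v := by
  classical
  have e2 : u * v ≠ u := fun e => v1 (mul_left_cancel (a := u) (by rw [e, mul_one]))
  have e3 : u * v ≠ v := fun e => u1 (mul_right_cancel (b := v) (by rw [e, one_mul]))
  have := Set.eq_of_subset_of_ncard_le (s := {1, u, v, u * v}) (t := U) (by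
    rintro _ (rfl | rfl | rfl | rfl); exacts [one_mem _, hu, hv, mul_mem hu hv]) (h4.trans (by
      rw [Set.ncard_insert_of_notMem (by simp [u1.symm, v1.symm, e1.symm]), Set.ncard_insert_of_notMem (by simp [uv, e2.symm]),
        Set.ncard_pair e3.symm]))
  exact fun w hw => this.ge hw

theorem c2 (a b : G) : Nat.card ({a, b} : Set G) ≤ 2 := (Set.ncard_insert_le _ _).trans (by simp)

theorem cmL (h : ∀ x ∈ H, x * x ∈ L) (hu : u ∈ H) (hv : v ∈ H) : ⁅u, v⁆ ∈ L := by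
  convert mul_mem (mul_mem (h _ (mul_mem hu hv)) (h _ (mul_mem (mul_mem (inv_mem hv) (inv_mem hu)) hv))) (h _ (inv_mem hv))
    using 1
  rw [commutatorElement_def]; group

theorem rk2 (pg : IsPGroup 2 G) (ht : #C1[t] ≤ 4) (h : ∀ x ∈ H, x * x ∈ L) : #H ≤ 4 * #L ∧ (2 * #L < #H →
    ∃ z ∈ H, z ≠ 1 ∧ z * z = 1 ∧ ∀ g, g * z = z * g) := by
  obtain ⟨r, hr⟩ := PGrp.exists_index_dvd_two pg (by
    have := fib ⊤ (fun g => ⁅g, t⁆) (_root_.commutator G) C1[t] (fun g _ => commutator_mem_commutator trivial trivial)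
      fun a _ b _ e => mem_cent1.2 (by
        have e : a * t * a⁻¹ = b * t * b⁻¹ := by simpa [commutatorElement_def] using e
        calc a⁻¹ * b * t = a⁻¹ * (b * t * b⁻¹) * b := by group
          _ = _ := by rw [← e]; group)
    rw [card_top, mul_comm] at this
    exact this.trans (Nat.mul_le_mul_right _ ht))
  have a := mulle (le_top : H ≤ ⊤) (le_top : zpowers r ≤ ⊤)
  have b := (zpowers r).card_mul_index
  have : 0 < #L := Nat.card_pos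
  rw [card_top, ← b] at a
  have a : #H ≤ 2 * #(H ⊓ zpowers r) := Nat.le_of_mul_le_mul_right (a.trans ((Nat.mul_le_mul_left _ (Nat.mul_le_mul_left _
    (Nat.le_of_dvd two_pos hr))).trans_eq (by ring))) (Nat.card_pos (α := zpowers r))
  have := cyc_le h r
  refine ⟨by omega, fun c => ?_⟩
  obtain ⟨y, hy, y1⟩ := (bot_or_exists_ne_one (H ⊓ zpowers r)).resolve_left fun e => by rw [e, card_bot] at a; omega
  obtain ⟨m, h1, h2⟩ := pw2 pg (T := ⊥) y1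
  have hz := pow_mem hy m
  generalize y ^ m = z at *
  have : (zpowers r).Normal := by
    rcases (Nat.dvd_prime Nat.prime_two).1 hr with e | e
    · rw [index_eq_one.1 e]; infer_instance
    · exact normal_of_index_eq_two e
  refine ⟨z, hz.1, h1, h2, fun g => mul_inv_eq_iff_eq_mul.1 ?_⟩
  have := Set.eq_of_subset_of_ncard_le (s := {1, z}) (t := {y | y ∈ zpowers r ∧ y * y = 1}) (by
    rintro _ (rfl | rfl); exacts [⟨one_mem _, one_mul 1⟩, ⟨hz.2, h2⟩]) ((cyc2 r).trans (Set.ncard_pair (Ne.symm h1)).ge)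
  exact (this.ge ⟨Normal.conj_mem ‹_› z hz.2 g, by rw [conj_mul, mem_bot.1 h2, mul_one, mul_inv_cancel]⟩).resolve_left
    fun e => h1 (conj_eq_one_iff.1 e)

structure Al0 (W : Subgroup G) : Prop where
  pg : IsPGroup 2 G
  nl : W.Normal
  ab : ∀ a ∈ W, ∀ b ∈ W, a * b = b * a
  e4 : ∀ a ∈ W, a ^ 4 = 1
  al : ∀ x ∈ C[W], x ^ 4 = 1 → x ∈ W

theorem exists_Al0 (pg : IsPGroup 2 G) (n : U.Normal) (c : ∀ a ∈ U, ∀ b ∈ U, a * b = b * a) (e : ∀ a ∈ U, a * a = 1) :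
    ∃ W : Subgroup G, Al0 W ∧ U ≤ W := by
  obtain ⟨W, l, ⟨h1, h2, h3⟩, hm⟩ := Finite.exists_le_maximal
    (p := fun B : Subgroup G => B.Normal ∧ IsMulCommutative B ∧ ∀ b ∈ B, b ^ 2 ^ 2 = 1) (a := U)
    ⟨n, ⟨⟨fun a b => Subtype.ext (c _ a.2 _ b.2)⟩⟩, fun b hb => (p4 b).trans (by rw [e b hb, one_mul])⟩
  exact ⟨W, ⟨pg, h1, fun a ha b hb => congrArg Subtype.val (h2.is_comm.comm ⟨a, ha⟩ ⟨b, hb⟩), h3, fun x hx e =>
    Transfer.mem_of_maximal_abelian_exponent pg (n := 2) (by decide) h2 h3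
      (fun B a b c l => le_antisymm (hm ⟨a, b, c⟩ l) l) hx e⟩, l⟩

namespace Al0
variable (A : Al0 W)
include A

def W0 : Subgroup G where
  carrier := {w | w ∈ W ∧ w * w = 1}
  one_mem' := ⟨one_mem _, one_mul 1⟩
  mul_mem' := fun {a b} ha hb => ⟨mul_mem ha.1 hb.1, by
    rw [mul_assoc, ← mul_assoc b, ← A.ab a ha.1 b hb.1, mul_assoc, hb.2, mul_one, ha.2]⟩
  inv_mem' := fun {a} ha => ⟨inv_mem ha.1, by rw [← mul_inv_rev, ha.2, inv_one]⟩

theorem n0 : A.W0.Normal := ⟨fun w hw g => ⟨A.nl.conj_mem _ hw.1 g, by rw [conj_mul, hw.2, mul_one, mul_inv_cancel]⟩⟩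
theorem WC : W ≤ C[W] := fun a ha b hb => A.ab b hb a ha
theorem nC : C[W].Normal := have := A.nl; inferInstance
theorem m0 (hu : u ∈ C[W]) (e : u * u = 1) : u ∈ A.W0 := ⟨A.al u hu (by rw [p4, e, one_mul]), e⟩
theorem s0 (hu : u ∈ W) : u * u ∈ A.W0 := ⟨mul_mem hu hu, by rw [← A.e4 u hu, p4]⟩

theorem pw (hu : u ∈ C[W]) (h : ∀ n : ℕ, u ^ n ∈ W → u ^ n * u ^ n = 1) : u * u = 1 := by
  obtain ⟨m, hm⟩ := A.pg u
  induction m with
  | zero => rw [show u = 1 by simpa using hm, one_mul]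
  | succ m ih =>
    rcases m with _ | m
    · rwa [← pow_two]
    refine ih ?_
    have := h (2 ^ m) (A.al _ (pow_mem hu _) (by rw [← pow_mul, ← hm]; congr 1; ring))
    rwa [← pow_two, ← pow_mul, ← pow_succ] at this

theorem pwc (h : ∀ w ∈ W, w * t = t * w → w * w = 1) (hu : u ∈ C[W]) (e : u * t = t * u) : u * u = 1 :=
  A.pw hu fun n hn => h _ hn (Commute.pow_left e n)

theorem pwi (h : ∀ w ∈ W, t * w * t⁻¹ = w⁻¹ → w * w = 1) (hu : u ∈ C[W]) (e : t * u * t⁻¹ = u⁻¹) : u * u = 1 :=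
  A.pw hu fun n hn => h _ hn (by rw [← conj_pow, e, inv_pow])

theorem invC (hc : c ∈ C[W]) (hu : u ∈ C[W]) (e : c * u * c⁻¹ = u⁻¹) : u * u = 1 := A.pwi (fun w hw e => by
  rw [← hc _ hw, mul_inv_cancel_right] at e
  exact mul_eq_one_iff_eq_inv.2 e) hu e

theorem sqf (hc : c ∈ C[W]) (hu : u ∈ C[W]) (e : c * c = u * u) : c⁻¹ * u ∈ A.W0 :=
  A.m0 (mul_mem (inv_mem hc) hu) (A.invC hc (mul_mem (inv_mem hc) hu) (by
    calc c * (c⁻¹ * u) * c⁻¹ = u⁻¹ * (u * u) * c⁻¹ := by group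
      _ = _ := by rw [← e]; group))

theorem sq8 (c0 : #A.W0 ≤ 8) (T : Set G) (hT : ∀ c ∈ C[W] ⊓ H, c * c ∈ T) : #(C[W] ⊓ H) ≤ Nat.card T * 8 :=
  (fib _ (fun c => c * c) T A.W0 hT fun _ hc _ hu e => A.sqf hc.1 hu.1 e).trans (Nat.mul_le_mul_left _ c0)

theorem cm (h : ∀ x ∈ H, x * x ∈ L) (hx : x ∈ H) {n : ℕ} (c : #(C[W] ⊓ C1[x]) ≤ n) : #(C[W] ⊓ H) ≤ n * #(C[W] ⊓ L) := by
  rw [mul_comm]
  exact (fib (C[W] ⊓ H) (fun w => ⁅w, x⁆) (C[W] ⊓ L : Subgroup G) (C[W] ⊓ C1[x] : Subgroup G) (fun w hw =>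
    ⟨show ⁅w, x⁆ ∈ C[W] by
      simpa only [commutatorElement_def, mul_assoc] using C[W].mul_mem hw.1 (A.nC.conj_mem _ (C[W].inv_mem hw.1) x), cmL h hw.2 hx⟩)
    fun a ha b hb e => ⟨C[W].mul_mem (C[W].inv_mem ha.1) hb.1, mem_cent1.2 (by
      have e : a * x * a⁻¹ = b * x * b⁻¹ := by simpa [commutatorElement_def] using e
      calc a⁻¹ * b * x = a⁻¹ * (b * x * b⁻¹) * b := by group
        _ = _ := by rw [← e]; group)⟩).trans (Nat.mul_le_mul_left _ c)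

theorem fl (π : G →* Q) (hk : π.ker = C[W]) (h4 : #(H.map π) ≤ 4 * #(L.map π))
    (h2 : 2 * #(L.map π) < #(H.map π) → #(C[W] ⊓ H) ≤ 4 * #(C[W] ⊓ L))
    (h1 : #(L.map π) < #(H.map π) → #(C[W] ⊓ H) ≤ 8 * #(C[W] ⊓ L)) (h0 : #(C[W] ⊓ H) ≤ 16 * #(C[W] ⊓ L)) :
    #H ≤ 2 ^ 4 * #L := by
  have a := card_inf_mul_relIndex C[W] H
  have b := card_inf_mul_relIndex C[W] L
  nth_rw 2 [← hk] at a b
  rw [relIndex_ker] at a b
  rw [← a, ← b]
  by_cases c : 2 * #(L.map π) < #(H.map π)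
  · nlinarith [Nat.mul_le_mul (h2 c) h4]
  by_cases d : #(L.map π) < #(H.map π)
  · nlinarith [Nat.mul_le_mul (h1 d) (not_lt.1 c)]
  · nlinarith [Nat.mul_le_mul h0 (not_lt.1 d)]

theorem lt2 (n : x ∉ C[W]) : 2 * #(C[W] ⊓ C1[x]) ≤ #C[W] := by
  obtain ⟨w, hw, e⟩ : ∃ w ∈ W, w * x ≠ x * w := by by_contra! e; exact n e
  exact dbl inf_le_left (A.WC hw) fun m => e (mem_cent1.1 m.2)

omit A in
theorem exH {π : G →* Q} (hk : π.ker = C[W]) (c : #(L.map π) < #(H.map π)) : ∃ x ∈ H, x ∉ C[W] := by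
  by_contra! e
  have : 0 < #(L.map π) := Nat.card_pos_iff.2 ⟨⟨1⟩, Finite.of_surjective _ (π.subgroupMap_surjective L)⟩
  rw [(H.map_eq_bot_iff (f := π)).2 fun x hx => hk.ge (e x hx), card_bot] at c
  omega

theorem fl16 (h : ∀ x ∈ H, x * x ∈ L) (π : G →* Q) (hk : π.ker = C[W]) (c : #C[W] ≤ 16) (h4 : #(H.map π) ≤ 4 * #(L.map π))
    (h2 : 2 * #(L.map π) < #(H.map π) → ∃ x ∈ H, #(C[W] ⊓ C1[x]) ≤ 4) : #H ≤ 2 ^ 4 * #L := by
  refine A.fl π hk h4 (fun c => (h2 c).elim fun x hx => A.cm h hx.1 hx.2) (fun d => ?_) ?_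
  · obtain ⟨x, hx, n⟩ := exH hk d
    exact A.cm h hx (by have := A.lt2 n; omega)
  · have := card_le_of_le (inf_le_left : C[W] ⊓ H ≤ _)
    have : 0 < #(C[W] ⊓ L) := Nat.card_pos
    omega

theorem perm4 (X : SubMulAction (ConjAct G) G) (cX : Nat.card X ≤ 4) (XW : ∀ w ∈ X, w ∈ W)
    (m : ∀ g, (∀ w ∈ X, w * g = g * w) → g ∈ C[W]) (h : ∀ x ∈ H, x * x ∈ L) :
    ∃ π : G →* Equiv.Perm (Fin 4), π.ker = C[W] ∧ #(H.map π) ≤ 4 * #(L.map π) := by
  classical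
  have := Fintype.ofFinite X
  obtain ⟨ι⟩ : Nonempty (X ↪ Fin 4) := Function.Embedding.nonempty_of_card_le (by simpa using cX)
  refine ⟨(Equiv.Perm.viaEmbeddingHom ι).comp ((MulAction.toPermHom _ X).comp ConjAct.toConjAct.toMonoidHom), ?_,
    P4 ((A.pg.to_subgroup H).map _) ?_⟩
  · ext g
    rw [MonoidHom.mem_ker, MonoidHom.comp_apply, map_eq_one_iff _ (Equiv.Perm.viaEmbeddingHom_injective ι)]
    exact ⟨fun e => m g fun w hw => (eq_mul_of_mul_inv_eq (congrArg (fun σ : Equiv.Perm X => (σ ⟨w, hw⟩).1) e)).symm,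
      fun e => Equiv.ext fun w => Subtype.ext (mul_inv_eq_of_eq_mul (e w (XW w w.2)).symm)⟩
  · rintro _ ⟨x, hx, rfl⟩
    exact ⟨_, h x hx, map_mul ..⟩

theorem e8 (h : ∀ x ∈ H, x * x ∈ L) (c : #C[W] ≤ 8) (c0 : 8 ≤ #A.W0) : #H ≤ 2 ^ 4 * #L := by
  classical
  have := A.nl
  have cW : #W = 2 ^ 3 := le_antisymm ((card_le_of_le A.WC).trans c) (c0.trans (card_le_of_le fun _ h => h.1))
  have hK := nil_comm_properl (pgroup_nil (A.pg.to_subgroup ⊤)) le_top (fun e : W = ⊥ => by simp [e] at cW) le_rfl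
    (norm_of_normal W ⊤)
  obtain ⟨n, hn⟩ := (A.pg.to_subgroup ⁅W, ⊤⁆).exists_card_eq
  have := card_lt hK
  rw [hn, cW, Nat.pow_lt_pow_iff_right one_lt_two] at this
  obtain ⟨Y, cY, lY⟩ := Sylow.exists_subgroup_card_pow_prime_le (G := W) 2 (n := n) (m := 2) (cW ▸ pow_dvd_pow 2 (by decide))
    ((⁅W, ⊤⁆ : Subgroup G).subgroupOf W) ((Nat.card_congr (subgroupOfEquivOfLe hK.le).toEquiv).trans hn) (by omega)
  have cY' : #(Y.map W.subtype) = 4 := (card_map_of_injective W.subtype_injective).trans cY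
  have lY' : ∀ g, ∀ w ∈ W, ⁅w, g⁆ ∈ Y.map W.subtype := fun g w hw =>
    have m := commutator_mem_commutator hw (mem_top g)
    ⟨⟨_, hK.le m⟩, lY m, rfl⟩
  have YW := map_subtype_le Y
  generalize Y.map W.subtype = Z at cY' lY' YW
  have i : Z.relIndex W = 2 := by have := card_mul_relIndex YW; rw [cY', cW] at this; omega
  have m2 : ∀ a ∈ W, ∀ b ∈ W, a ∉ Z → b ∉ Z → a * b ∈ Z := fun a ha b hb n n' =>
    (mul_mem_iff_of_index_two (a := ⟨a, ha⟩) (b := ⟨b, hb⟩) i).2 (iff_of_false n n')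
  obtain ⟨a, ha, na⟩ := SetLike.not_le_iff_exists.1 fun l : W ≤ Z => by have := card_le_of_le l; omega
  have inv : ∀ g w : G, w ∈ W ∧ w ∉ Z → g * w * g⁻¹ ∈ W ∧ g * w * g⁻¹ ∉ Z := fun g w hw =>
    ⟨A.nl.conj_mem w hw.1 _, fun e => hw.2 (by
      have e2 : w = ⁅w, g⁆ * (g * w * g⁻¹) := by rw [commutatorElement_def]; group
      rw [e2]; exact mul_mem (lY' g _ hw.1) e)⟩
  let X : SubMulAction (ConjAct G) G := ⟨{w | w ∈ W ∧ w ∉ Z}, fun g w hw => inv g.ofConjAct w hw⟩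
  have cX : Nat.card X ≤ 4 := (Nat.card_le_card_of_injective (fun w : X => (⟨a * w, m2 _ ha _ w.2.1 na w.2.2⟩ : Z))
    fun x y e => Subtype.ext (mul_left_cancel (congrArg (·.1) e))).trans cY'.le
  obtain ⟨π, hk, h4⟩ := A.perm4 X cX (fun w hw => hw.1) (fun g m w hw => by
    by_cases e' : w ∈ Z
    · refine mul_left_cancel (a := a) ?_
      rw [← mul_assoc, m _ ⟨mul_mem ha hw, fun e => na ((mul_mem_cancel_right e').1 e)⟩, ← mul_assoc, ← m a ⟨ha, na⟩, mul_assoc]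
    · exact m w ⟨hw, e'⟩) h
  refine A.fl16 h π hk (c.trans (by decide)) h4 fun d => ?_
  obtain ⟨x, hx, n⟩ := exH (L := L) (H := H) hk ((Nat.le_mul_of_pos_left _ two_pos).trans_lt d)
  exact ⟨x, hx, by have := A.lt2 n; omega⟩

end Al0
end Cfsg.Agent.MacW
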