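import Cfsg.Agent.MacW.H1

/-! Harada's theorem, part 2 (helper20): an involution `t` with `#C_C(t) ≤ 4` (`Tt`), the cases `Tt.finR`, `Tt.caseR`, `Tt.caseN`. -/

set_option autoImplicit false
set_option linter.unusedSectionVars false

namespace Cfsg.Agent.MacW
open Subgroup Cfsg.Agent.BG Cfsg.Agent.Scn
open scoped commutatorElement

variable {G Q : Type*} [Group G] [Finite G] [Group Q] [Finite Q] {W H L U E : Subgroup G} {u v c d x y z t w s p a : G} {π : G →* Q}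

theorem p2 (pg : IsPGroup 2 G) {k : ℕ} (h : 2 ^ k < #U) : 2 ^ (k + 1) ≤ #U := by
  obtain ⟨n, hn⟩ := (pg.to_subgroup U).exists_card_eq
  rw [hn] at h ⊢
  exact Nat.pow_le_pow_right two_pos ((Nat.pow_lt_pow_iff_right one_lt_two).1 h)

theorem thI (t2 : t * t = 1) (d : G) : t * ⁅t, d⁆ * t⁻¹ = ⁅t, d⁆⁻¹ := by
  calc t * ⁅t, d⁆ * t⁻¹ = t * t * d * (t * t)⁻¹ * t * d⁻¹ * t⁻¹ := by rw [commutatorElement_def]; group
    _ = _ := by rw [t2, commutatorElement_def]; group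

theorem thF (e : ⁅t, c⁆ = ⁅t, d⁆) : c⁻¹ * d ∈ C1[t] := mem_cent1.2 (by
  have e : c * t⁻¹ * c⁻¹ = d * t⁻¹ * d⁻¹ := by simpa [commutatorElement_def, mul_assoc] using e
  calc c⁻¹ * d * t = c⁻¹ * (d * t⁻¹ * d⁻¹)⁻¹ * d := by group
    _ = _ := by rw [← e]; group)

theorem thN [U.Normal] (hc : c ∈ U) : ⁅t, c⁆ ∈ U := mul_mem (Normal.conj_mem ‹_› c hc t) (inv_mem hc)

theorem fixI (e : t * c * t⁻¹ = c⁻¹) (c2 : c * c = 1) : c ∈ C1[t] :=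
  mem_cent1.2 (mul_inv_eq_iff_eq_mul.1 (e.trans (inv_eq_of_mul_eq_one_right c2))).symm

theorem thK (hk : π.ker = U) (e : π s * π t = π t * π s) : ⁅t, s⁆ ∈ U :=
  hk.le (by rw [MonoidHom.mem_ker, map_commutatorElement, commutatorElement_eq_one_iff_mul_comm, e])

theorem cmap (hk : π.ker = U) (K : Subgroup G) : #(U ⊓ K) * #(K.map π) = #K := by
  rw [← relIndex_ker, hk, card_inf_mul_relIndex]

theorem sqmap (h : ∀ x ∈ H, x * x ∈ L) : ∀ x ∈ H.map π, x * x ∈ L.map π := by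
  rintro _ ⟨x, hx, rfl⟩; exact ⟨_, h x hx, map_mul ..⟩

structure Tt (W : Subgroup G) (t : G) : Prop extends Al0 W where
  n : t ∉ C[W]
  t2 : t * t = 1
  f : ∀ w ∈ W, w * t = t * w → w * w = 1
  c : #(C[W] ⊓ C1[t]) ≤ 4

namespace Tt
variable (T : Tt W t)
include T

theorem Y2 (hy : y ∈ C[W] ⊓ C1[t]) : y ∈ T.W0 := T.m0 hy.1 (T.pwc T.f hy.1 (mem_cent1.1 hy.2))
theorem th0 (hx : x ∈ T.W0) : ⁅t, x⁆ ∈ C[W] ⊓ C1[t] :=
  have := T.n0
  ⟨T.WC (thN hx).1, fixI (thI T.t2 x) (thN hx).2⟩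
theorem thM (hx : x ∈ W) (hy : y ∈ W) : ⁅t, x * y⁆ = ⁅t, x⁆ * ⁅t, y⁆ := by
  have := T.nl
  calc ⁅t, x * y⁆ = ⁅t, x⁆ * (x * ⁅t, y⁆) * x⁻¹ := by simp only [commutatorElement_def]; group
    _ = _ := by rw [T.ab x hx _ (thN hy)]; group
theorem lN (hw : w ∈ W) (e : t * w * t⁻¹ = w⁻¹) (hx : x ∈ T.W0) (e' : w * w = ⁅t, x⁆) : w * w = 1 := by
  have := T.f (w * x) (mul_mem hw hx.1) (by
    calc w * x * t = w⁻¹ * (w * w) * x * t := by group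
      _ = _ := by rw [← e, e', commutatorElement_def]; group)
  rwa [mul_assoc, ← mul_assoc x, ← T.ab w hw x hx.1, mul_assoc, hx.2, mul_one] at this
theorem ex0 (c0 : 8 ≤ #T.W0) : ∃ x ∈ T.W0, ⁅t, x⁆ ≠ 1 := by
  by_contra! e
  have := (card_le_of_le (H := T.W0) fun x hx => (⟨T.WC hx.1, mem_cent1.2 (commutatorElement_eq_one_iff_mul_comm.1 (e x hx)).symm⟩ :
    x ∈ C[W] ⊓ C1[t])).trans T.c
  omega
theorem cst (hd : d ∈ C[W]) : C[W] ⊓ C1[d * t] ≤ C[W] ⊓ C1[t] := fun c hc => by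
  have k : ∀ w ∈ W, w * (d * t) = d * t * w → w * t = t * w := fun w hw e =>
    mul_left_cancel (a := d) (by rw [← mul_assoc, ← hd w hw, mul_assoc, e, mul_assoc])
  exact ⟨hc.1, mem_cent1.2 (k c (T.m0 hc.1 (T.pwc (fun w hw e => T.f w hw (k w hw e)) hc.1 (mem_cent1.1 hc.2))).1
    (mem_cent1.1 hc.2))⟩

section R
variable (r : ∀ w ∈ W, t * w * t⁻¹ = w⁻¹ → w * w = 1)
include r

theorem rI (hc : c ∈ C[W]) (e : t * c * t⁻¹ = c⁻¹) : c ∈ C[W] ⊓ C1[t] := ⟨hc, fixI e (T.pwi r hc e)⟩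
theorem rT (hc : c ∈ C[W]) : ⁅t, c⁆ ∈ C[W] ⊓ C1[t] := have := T.nC; T.rI r (thN hc) (thI T.t2 c)
theorem rC (Y : Set G) (h : ∀ c ∈ C[W], ⁅t, c⁆ ∈ Y) : #C[W] ≤ Nat.card Y * 4 :=
  (fib C[W] (fun c => ⁅t, c⁆) Y (C[W] ⊓ C1[t] : Subgroup G) h fun _ ha _ hb e =>
    ⟨C[W].mul_mem (C[W].inv_mem ha) hb, thF e⟩).trans (Nat.mul_le_mul_left _ T.c)
theorem r16 : #C[W] ≤ 16 :=
  (T.rC r (C[W] ⊓ C1[t] : Subgroup G) fun _ => T.rT r).trans (Nat.mul_le_mul_right 4 T.c)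
theorem rW (hc : c ∈ C[W]) : c ∈ W := by
  have m := T.Y2 (T.rT r hc)
  refine T.al c hc ((p4 c).trans (T.Y2 ⟨C[W].mul_mem hc hc, mem_cent1.2 ?_⟩).2)
  calc c * c * t = ⁅t, c⁆ * ⁅t, c⁆ * c * c * t := by rw [m.2, one_mul]
    _ = ⁅t, c⁆ * (c * ⁅t, c⁆) * c * t := by rw [← hc _ m.1]; group
    _ = _ := by simp only [commutatorElement_def]; group
theorem rA (hd : d ∈ C[W]) : C[W] ⊓ C1[d * x] ≤ C[W] ⊓ C1[x] := fun c hc => ⟨hc.1, mem_cent1.2 (mul_left_cancel (a := d) (by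
  rw [← mul_assoc, ← hd c (T.rW r hc.1), mul_assoc, mem_cent1.1 hc.2, mul_assoc]))⟩
theorem rL (c8 : 8 < #C[W]) (hk : π.ker = C[W]) (e : π s * π t = π t * π s) : ∃ d ∈ C[W], d⁻¹ * s ∈ C1[t] := by
  have m := T.rI r (thK hk e) (thI T.t2 s)
  by_contra! n
  have a := T.rC r ((C[W] ⊓ C1[t] : Subgroup G) \ {⁅t, s⁆}) fun c hc => ⟨T.rT r hc, fun e => n c hc (thF e)⟩
  have b : Nat.card ↥(((C[W] ⊓ C1[t] : Subgroup G) : Set G) \ {⁅t, s⁆}) < #(C[W] ⊓ C1[t]) :=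
    Set.ncard_lt_ncard (Set.diff_singleton_ssubset.2 m)
  have := T.c
  have := p2 T.pg (k := 3) c8
  omega
theorem finR (h : ∀ x ∈ H, x * x ∈ L) (hk : π.ker = C[W]) (pq : IsPGroup 2 Q) {q : Q} (c4 : #C1[q] ≤ 4)
    (K : ∀ x, π x ≠ 1 → (∀ g, g * π x = π x * g) → #(C[W] ⊓ C1[x]) ≤ 4) : #H ≤ 2 ^ 4 * #L := by
  obtain ⟨a, b⟩ := rk2 pq c4 (sqmap (π := π) h)
  refine T.fl16 h π hk (T.r16 r) a fun c => ?_
  obtain ⟨_, ⟨x, hx, rfl⟩, x1, -, e⟩ := b c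
  exact ⟨x, hx, K x x1 e⟩
end R

variable (h : ∀ x ∈ H, x * x ∈ L) (hk : π.ker = C[W]) (sj : Function.Surjective π) (pq : IsPGroup 2 Q) (cE : #E = 8)
  (gen : ∀ x ∈ C1[t], (∀ y ∈ C[W] ⊓ C1[t], x * y = y * x) → x ∈ E) (i2 : ∀ a ∈ E, π a = 1 ∨ π a = π t)
include h hk sj pq cE gen i2

theorem caseR (r : ∀ w ∈ W, t * w * t⁻¹ = w⁻¹ → w * w = 1) (c8 : 8 < #C[W]) (hz : z ∈ C[W]) (z1 : z ≠ 1)
    (zc : ∀ g, g * z = z * g) (c4 : 4 ≤ #(C[W] ⊓ C1[t])) : #H ≤ 2 ^ 4 * #L := by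
  have := T.nC
  have hz' : z ∈ C[W] ⊓ C1[t] := ⟨hz, mem_cent1.2 (zc t).symm⟩
  obtain ⟨p, hp, p1, pz⟩ : ∃ p ∈ C[W] ⊓ C1[t], p ≠ 1 ∧ z ≠ p := by
    by_contra! e
    have := (Set.ncard_le_ncard (s := (C[W] ⊓ C1[t] : Subgroup G)) (t := {1, z}) fun p hp =>
      (em (p = 1)).imp id fun n => (e p hp n).symm).trans (c2 1 z)
    exact absurd (c4.trans this) (by decide)
  have en := four_enum T.c (fun _ hy => (T.Y2 hy).2) hz' hp z1 p1 pz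
  have g2 : ∀ x ∈ C1[t], x * p = p * x → x ∈ E := fun x hx e => gen x hx fun y hy => by
    rcases en y hy with rfl | rfl | rfl | rfl
    exacts [by simp, zc x, e, by rw [← mul_assoc, zc x, mul_assoc, e, mul_assoc]]
  have a := fib C1[t] (fun x => x * p * x⁻¹) {p, z * p} E (fun x hx => by
    rcases en _ ⟨Normal.conj_mem ‹_› p hp.1 x, C1[t].mul_mem (C1[t].mul_mem hx hp.2) (C1[t].inv_mem hx)⟩ with e | e | e | e
    exacts [absurd (conj_eq_one_iff.1 e) p1, absurd (mul_left_cancel ((zc x).trans (mul_inv_eq_iff_eq_mul.1 e).symm)) pz,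
      .inl e, .inr e]) fun x hx y hy e => g2 _ (mul_mem (inv_mem hx) hy) (by
        calc x⁻¹ * y * p = x⁻¹ * (y * p * y⁻¹) * y := by group
          _ = _ := by rw [← e]; group)
  have b := cmap hk C1[t]
  have c := c2 p (z * p)
  change _ ≤ _ * #E at a
  refine T.finR r h hk pq (q := π t) ((card_le_of_le (K := C1[t].map π) fun q hq => ?_).trans (by nlinarith)) fun x x1 e => ?_
  · obtain ⟨s, rfl⟩ := sj q
    obtain ⟨d, hd, m⟩ := T.rL r c8 hk (mem_cent1.1 hq)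
    exact ⟨_, m, by rw [map_mul, map_inv, show π d = 1 from hk.ge hd, inv_one, one_mul]⟩
  obtain ⟨d, hd, m⟩ := T.rL r c8 hk (e _).symm
  rw [← mul_inv_cancel_left d x]
  refine (card_le_of_le (T.rA r hd)).trans ?_
  have x1' : π (d⁻¹ * x) ≠ 1 := by rwa [map_mul, map_inv, show π d = 1 from hk.ge hd, inv_one, one_mul]
  generalize d⁻¹ * x = y at m x1'
  by_cases hy : y ∈ E
  · rw [← inv_mul_cancel_right y t]
    exact (card_le_of_le (T.cst (hk.le (by simp [MonoidHom.mem_ker, (i2 y hy).resolve_left x1'])))).trans T.c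
  have k : ∀ v ∈ C[W] ⊓ C1[t], v ∈ C1[y] → v ∈ ({1, z} : Set G) := fun v hv e => by
    rcases en v hv with rfl | rfl | rfl | rfl
    exacts [.inl rfl, .inr rfl, absurd (g2 y m (mem_cent1.1 e).symm) hy,
      absurd (g2 y m (mul_left_cancel (a := z) (by rw [← mul_assoc, ← zc, mul_assoc, ← mem_cent1.1 e, mul_assoc]))) hy]
  exact (fib (C[W] ⊓ C1[y]) (fun c => ⁅t, c⁆) {1, z} {1, z} (fun c hc => k _ (T.rT r hc.1)
    (mul_mem (mul_mem (mul_mem (mem_cent1_comm.1 m) hc.2) (inv_mem (mem_cent1_comm.1 m))) (inv_mem hc.2)))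
    fun a ha b hb e => k _ ⟨C[W].mul_mem (C[W].inv_mem ha.1) hb.1, thF e⟩ (mul_mem (inv_mem ha.2) hb.2)).trans
    (Nat.mul_le_mul (c2 1 z) (c2 1 z))

theorem caseN (c0 : 8 ≤ #T.W0) (ha : a ∈ W) (ia : t * a * t⁻¹ = a⁻¹) (a2 : a * a ≠ 1) : #H ≤ 2 ^ 4 * #L := by
  have nC := T.nC
  obtain ⟨x0, hx0, y1⟩ := T.ex0 c0
  have hy := T.th0 hx0
  have sqY : ∀ w ∈ W, t * w * t⁻¹ = w⁻¹ → w * w ∈ C[W] ⊓ C1[t] := fun w hw e =>
    ⟨T.WC (mul_mem hw hw), fixI (by rw [← conj_mul, e, mul_inv_rev]) (T.s0 hw).2⟩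
  have en := four_enum T.c (fun _ hy => (T.Y2 hy).2) hy (sqY a ha ia) y1 a2 fun e => a2 (T.lN ha ia hx0 e.symm)
  have im : ∀ x ∈ T.W0, ⁅t, x⁆ = 1 ∨ ⁅t, x⁆ = ⁅t, x0⁆ := fun x hx => by
    rcases en _ (T.th0 hx) with e | e | e | e
    exacts [.inl e, .inr e, absurd (T.lN ha ia hx e.symm) a2, absurd (T.lN ha ia (mul_mem hx0 hx) (by
      rw [T.thM hx0.1 hx.1, e, ← mul_assoc, (T.Y2 hy).2, one_mul])) a2]
  have c8 : #T.W0 ≤ 8 := (fib T.W0 (fun c => ⁅t, c⁆) {1, ⁅t, x0⁆} (C[W] ⊓ C1[t] : Subgroup G) im fun _ ha _ hb e =>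
    ⟨T.WC (W.mul_mem (W.inv_mem ha.1) hb.1), thF e⟩).trans (Nat.mul_le_mul (c2 _ _) T.c)
  have CE : ∀ x ∈ C1[t], x ∈ E := fun x hx => by
    have xt : x * t * x⁻¹ = t := mul_inv_eq_of_eq_mul (mem_cent1.1 hx)
    have fy : x * ⁅t, x0⁆ = ⁅t, x0⁆ * x := by
      have := im _ (T.n0.conj_mem x0 hx0 x)
      rw [← xt, ← conjugate_commutatorElement, xt] at this
      exact mul_inv_eq_iff_eq_mul.1 (this.resolve_left fun e => y1 (conj_eq_one_iff.1 e))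
    have ha' := T.nl.conj_mem a ha x
    have ia' : t * (x * a * x⁻¹) * t⁻¹ = (x * a * x⁻¹)⁻¹ := by
      calc _ = x * t * x⁻¹ * (x * a * x⁻¹) * (x * t * x⁻¹)⁻¹ := by rw [xt]
        _ = x * (t * a * t⁻¹) * x⁻¹ := by group
        _ = _ := by rw [ia]; group
    have a2' : x * a * x⁻¹ * (x * a * x⁻¹) ≠ 1 := fun e => a2 (by rwa [conj_mul, conj_eq_one_iff] at e)
    have fa : x * (a * a) = a * a * x := by
      rcases en _ (sqY _ ha' ia') with e | e | e | e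
      · exact absurd e a2'
      · exact absurd (T.lN ha' ia' hx0 e) a2'
      · exact mul_inv_eq_iff_eq_mul.1 ((conj_mul ..).symm.trans e)
      · have e' : x * a * x⁻¹ * a * (x * a * x⁻¹ * a) = ⁅t, x0⁆ := by
          rw [Commute.mul_mul_mul_comm (T.ab a ha _ ha'), e, mul_assoc, (T.s0 ha).2, mul_one]
        exact absurd (e'.symm.trans (T.lN (mul_mem ha' ha) (by
          rw [← conj_mul, ia, ia', ← mul_inv_rev, T.ab a ha _ ha']) hx0 e')) y1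
    exact gen x hx fun y hy => by
      rcases en y hy with rfl | rfl | rfl | rfl
      exacts [by simp, fy, fa, by rw [← mul_assoc, fy, mul_assoc, fa, ← mul_assoc]]
  have ta : ⁅t, a⁻¹⁆ = a * a := by rw [commutatorElement_def, ← conj_inv, ia, inv_inv]
  have J0 : ∀ v ∈ C[W] ⊓ C1[t], ∃ d ∈ C[W], ⁅t, d⁆ = v := fun v hv => by
    rcases en v hv with rfl | rfl | rfl | rfl
    exacts [⟨1, one_mem _, by simp⟩, ⟨_, T.WC hx0.1, rfl⟩, ⟨_, T.WC (inv_mem ha), ta⟩,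
      ⟨_, T.WC (mul_mem hx0.1 (inv_mem ha)), by rw [T.thM hx0.1 (inv_mem ha), ta]⟩]
  have cI : Nat.card {c | c ∈ C[W] ∧ t * c * t⁻¹ = c⁻¹} + Nat.card {c | c ∈ C[W] ∧ t * c * t⁻¹ = c⁻¹} ≤ #C[W] := by
    have k : ∀ c, c ∈ C[W] → t * c * t⁻¹ = c⁻¹ → t * (c * x0) * t⁻¹ ≠ (c * x0)⁻¹ := fun c hc e e' => y1 (by
      rw [← conj_mul, e, ← hc _ hx0.1, mul_inv_rev, mul_right_inj] at e'
      rw [commutatorElement_def, e', ← mul_inv_rev, hx0.2, inv_one])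
    rw [← Nat.card_sum]
    refine Nat.card_le_card_of_injective (Sum.elim (fun c => (⟨c.1, c.2.1⟩ : C[W])) fun c => ⟨c.1 * x0, mul_mem c.2.1 (T.WC hx0.1)⟩) ?_
    rintro (⟨c, h1, h2⟩ | ⟨c, h1, h2⟩) (⟨d, h3, h4⟩ | ⟨d, h3, h4⟩) e <;> simp only [Sum.elim_inl, Sum.elim_inr, Subtype.mk.injEq] at e
    · subst e; rfl
    · exact absurd (e ▸ h2) (k d h3 h4)
    · exact absurd (e ▸ h4) (k c h1 h2)
    · obtain rfl := mul_right_cancel e; rfl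
  have c4 : #C1[π t] ≤ 4 := by
    have a := fib (C1[π t].comap π) (fun s => ⁅t, s⁆) {c | c ∈ C[W] ∧ t * c * t⁻¹ = c⁻¹} E
      (fun s hs => ⟨thK hk (mem_cent1.1 hs), thI T.t2 s⟩) fun _ _ _ _ e => CE _ (thF e)
    have b := cmap hk (C1[π t].comap π)
    rw [map_comap_eq_self_of_surjective sj, inf_eq_left.2 (hk.ge.trans (ker_le_comap π _))] at b
    have : 0 < #C[W] := Nat.card_pos
    change _ ≤ _ * #E at a
    nlinarith
  obtain ⟨r4, r2⟩ := rk2 pq c4 (sqmap (π := π) h)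
  have s1 : #(C[W] ⊓ H) ≤ #(C[W] ⊓ L) * 8 :=
    T.sq8 c8 (C[W] ⊓ L : Subgroup G) fun c hc => ⟨C[W].mul_mem hc.1 hc.1, h c hc.2⟩
  refine T.fl π hk r4 (fun c => ?_) (fun _ => by omega) (by omega)
  by_cases ht : π t ∈ H.map π
  · obtain ⟨x, hx, e⟩ := ht
    refine T.cm h hx ?_
    rw [← inv_mul_cancel_right x t]
    exact (card_le_of_le (T.cst (hk.le (by simp [MonoidHom.mem_ker, e])))).trans T.c
  obtain ⟨_, ⟨x, hx, rfl⟩, x1, x2, xc⟩ := r2 c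
  have xt : π x ≠ π t := fun e => ht ⟨x, hx, e⟩
  have t1 : π t ≠ 1 := fun e => T.n (hk.le e)
  have en' := four' c4 (mem_cent1.2 (xc _).symm) (cent1_self _) x1 t1 xt fun e => xt (mul_left_cancel (x2.trans e.symm))
  obtain ⟨g, -, gN, ng, -⟩ := up pq (lt_top_iff_ne_top.2 fun e : C1[π t] = ⊤ => ht ((eq_of_le_of_card_ge (le_top.trans e.ge)
    (c4.trans (p2 pq (k := 1) (by have : 0 < #(L.map π) := Nat.card_pos; omega)))).ge (cent1_self _)))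
  obtain ⟨g, rfl⟩ := sj g
  have gt : π g * π t * (π g)⁻¹ = π x * π t := by
    rcases en' _ ((gN _).1 (cent1_self _)) with e | e | e | e
    exacts [absurd (conj_eq_one_iff.1 e) t1, absurd (mul_left_cancel ((xc _).trans (mul_inv_eq_iff_eq_mul.1 e).symm)) xt,
      absurd (mem_cent1.2 (mul_inv_eq_iff_eq_mul.1 e)) ng, e]
  have NG : ∀ u, π u = π x → u ^ 4 ≠ 1 := fun u hu u4 => by
    have w0 := T.m0 (hk.le (show π (u * u) = 1 by rw [map_mul, hu, x2])) ((p4 u).symm.trans u4)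
    have hc := thK (t := t) (s := u) hk (hu ▸ (xc _).symm)
    have hd : (g * t * g⁻¹)⁻¹ * (t * u) ∈ C[W] := hk.le (by
      rw [MonoidHom.mem_ker, map_mul, map_inv, map_mul, map_mul, map_inv, gt, map_mul, hu, xc, inv_mul_cancel])
    have k := T.pwc (t := t * u) (fun w hw e => by
      have e1 : w * (g * t * g⁻¹) = g * t * g⁻¹ * w := mul_right_cancel (b := (g * t * g⁻¹)⁻¹ * (t * u)) (by
        rw [mul_assoc, mul_inv_cancel_left, e, mul_assoc _ w, hd w hw, ← mul_assoc, mul_inv_cancel_left])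
      have := T.f _ (T.nl.conj_mem w hw g⁻¹) (by
        calc g⁻¹ * w * g⁻¹⁻¹ * t = g⁻¹ * (w * (g * t * g⁻¹)) * g := by group
          _ = _ := by rw [e1]; group)
      rwa [conj_mul, conj_eq_one_iff] at this) (mul_mem hc (T.WC w0.1)) (by
        calc ⁅t, u⁆ * (u * u) * (t * u) = t * u * (t⁻¹ * u * t * u) := by rw [commutatorElement_def]; group
          _ = t * u * (t * u * t⁻¹ * u) := by rw [inv_eq_of_mul_eq_one_right T.t2]
          _ = _ := by rw [commutatorElement_def]; group)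
    rw [mul_assoc, ← mul_assoc (u * u), hc _ w0.1, mul_assoc, w0.2, mul_one] at k
    obtain ⟨d, hd, e⟩ := J0 _ ⟨hc, fixI (thI T.t2 u) k⟩
    have := i2 _ (CE _ (thF e))
    rw [map_mul, map_inv, show π d = 1 from hk.ge hd, inv_one, one_mul, hu] at this
    exact this.elim x1 xt
  have xC : x * x ∈ C[W] := hk.le (show π (x * x) = 1 by rw [map_mul, x2])
  by_cases e : ∃ c ∈ C[W] ⊓ H, c * c = x * x
  · obtain ⟨c, hc, e⟩ := e
    have c1 : π c = 1 := hk.ge hc.1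
    have i : c * (x * c⁻¹) * c⁻¹ = (x * c⁻¹)⁻¹ := by
      calc c * (x * c⁻¹) * c⁻¹ = c * x * (c * c)⁻¹ := by group
        _ = _ := by rw [e]; group
    refine absurd ?_ (NG (x * c⁻¹) (by simp [c1]))
    rw [p4]
    exact T.invC hc.1 (hk.le (by simpa [MonoidHom.mem_ker, c1] using x2)) (by rw [← conj_mul, i, ← mul_inv_rev])
  have s2 := T.sq8 (H := H) c8 ((C[W] ⊓ L : Subgroup G) \ {x * x}) fun c hc =>
    ⟨⟨C[W].mul_mem hc.1 hc.1, h c hc.2⟩, fun e' => e ⟨c, hc, e'⟩⟩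
  have s3 : Nat.card ↥(((C[W] ⊓ L : Subgroup G) : Set G) \ {x * x}) < #(C[W] ⊓ L) :=
    Set.ncard_lt_ncard (Set.diff_singleton_ssubset.2 ⟨xC, h x hx⟩)
  obtain ⟨j, hj⟩ := (T.pg.to_subgroup (C[W] ⊓ L)).exists_card_eq
  by_contra! n
  have := p2 T.pg (U := C[W] ⊓ H) (k := j + 2) (by rw [pow_add, ← hj]; omega)
  rw [pow_succ, pow_add, ← hj] at this
  omega

end Tt
end Cfsg.Agent.MacW
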