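import Cfsg.Agent.MacW.H2

/-! Harada's theorem (helper20): a 2-group with a self-centralising `E₈` has sectional rank at most 4 (`harada`). -/

set_option autoImplicit false
set_option linter.unusedSectionVars false

namespace Cfsg.Agent.MacW
open Subgroup Cfsg.Agent.BG Cfsg.Agent.Scn
open scoped commutatorElement

variable {G Q : Type*} [Group G] [Finite G] [Group Q] [Finite Q] {W H L E : Subgroup G} {u z t w : G} {π : G →* Q}

structure Tu (W : Subgroup G) (t u z : G) : Prop extends Al0 W where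
  c0 : 8 ≤ #toAl0.W0
  n : t ∉ C[W]
  t2 : t * t = 1
  u2 : u * u = 1
  tu : u * t = t * u
  z1 : z ≠ 1
  z2 : z * z = 1
  F : ∀ c ∈ C[W], c ∈ C1[t] → c ∈ C1[u] → c = 1 ∨ c = z

namespace Tu
variable (T : Tu W t u z)
include T

theorem cu (hw : w ∈ C1[t]) : u * w * u⁻¹ ∈ C1[t] :=
  mul_mem (mul_mem (mem_cent1.2 T.tu) hw) (inv_mem (mem_cent1.2 T.tu))
theorem nt (hw : w ∈ W) (e : w ∈ C1[t]) : w * (u * w * u⁻¹) = 1 ∨ w * (u * w * u⁻¹) = z :=
  T.F _ (T.WC (mul_mem hw (T.nl.conj_mem w hw u))) (mul_mem e (T.cu e)) (mem_cent1.2 (by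
    calc w * (u * w * u⁻¹) * u = u * u * w * (u * u)⁻¹ * u * w := by rw [T.u2]; group
      _ = u * (u * w * u⁻¹ * w) := by group
      _ = _ := by rw [T.ab _ (T.nl.conj_mem w hw u) w hw]))
theorem nt0 (hw : w ∈ T.W0) (e : w ∈ C1[t]) : w = 1 ∨ w = z ∨ w * (u * w * u⁻¹) = z := (T.nt hw.1 e).elim (fun e' =>
  (T.F w (T.WC hw.1) e (mem_cent1.2 (mul_inv_eq_iff_eq_mul.1 (mul_left_cancel (e'.trans hw.2.symm))).symm)).imp_right .inl)
  fun e' => .inr (.inr e')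
theorem exp : ∃ p ∈ T.W0, p ∈ C1[t] ∧ p * (u * p * u⁻¹) = z := by
  by_contra! n
  have := T.n0
  have k : ∀ p ∈ T.W0, p ∈ C1[t] → p ∈ ({1, z} : Set G) := fun p hp e => (T.nt0 hp e).imp_right (·.resolve_right (n p hp e))
  exact absurd (T.c0.trans ((fib T.W0 (fun c => ⁅t, c⁆) {1, z} {1, z} (fun c hc => k _ (thN hc) (fixI (thI T.t2 c) (thN hc).2))
    fun a ha b hb e => k _ (mul_mem (inv_mem ha) hb) (thF e)).trans (Nat.mul_le_mul (c2 1 z) (c2 1 z)))) (by decide)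

theorem tt : Tt W t := by
  have f : ∀ w ∈ W, w * t = t * w → w * w = 1 := fun w hw e => by
    obtain ⟨p, hp, pt, e2⟩ := T.exp
    have e := mem_cent1.2 e
    have hw' := T.nl.conj_mem w hw u
    have sq : ∀ v, v = 1 ∨ v = z → v * v = 1 := by rintro _ (rfl | rfl); exacts [one_mul 1, T.z2]
    have e3 := sq _ (T.nt hw e)
    rw [Commute.mul_mul_mul_comm (T.ab _ hw' w hw), conj_mul] at e3
    by_contra n
    have e4 := (T.F _ (T.WC (mul_mem hw hw)) (mul_mem e e)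
      (mem_cent1.2 (mul_inv_eq_iff_eq_mul.1 (mul_left_cancel (e3.trans (T.s0 hw).2.symm))).symm)).resolve_left n
    rcases T.nt hw e with e5 | e5
    · have := sq _ (T.F (w * p) (T.WC (mul_mem hw hp.1)) (mul_mem e pt) (mem_cent1.2 (mul_inv_eq_iff_eq_mul.1 (by
        rw [← conj_mul, eq_inv_of_mul_eq_one_right e5, eq_inv_mul_of_mul_eq e2, inv_eq_of_mul_eq_one_right hp.2, ← e4,
          T.ab p hp.1 _ (mul_mem hw hw)]; group)).symm))
      rw [Commute.mul_mul_mul_comm (T.ab p hp.1 w hw), hp.2, mul_one] at this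
      exact n this
    · exact n (sq _ (T.F w (T.WC hw) e (mem_cent1.2 (mul_inv_eq_iff_eq_mul.1 (mul_left_cancel (e5.trans e4.symm))).symm)))
  refine ⟨T.toAl0, T.n, T.t2, f, (fib (C[W] ⊓ C1[t]) (fun y => y * (u * y * u⁻¹)) {1, z} {1, z} (fun y hy =>
    T.nt (T.m0 hy.1 (T.pwc f hy.1 (mem_cent1.1 hy.2))).1 hy.2) fun a ha b hb e => ?_).trans (Nat.mul_le_mul (c2 1 z) (c2 1 z))⟩
  have ha' := T.m0 ha.1 (T.pwc f ha.1 (mem_cent1.1 ha.2))
  have hb' := T.m0 hb.1 (T.pwc f hb.1 (mem_cent1.1 hb.2))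
  have m := mul_mem (inv_mem ha') hb'
  refine T.F _ (T.WC m.1) (C1[t].mul_mem (C1[t].inv_mem ha.2) hb.2) (fixI ?_ m.2)
  calc u * (a⁻¹ * b) * u⁻¹ = (u * a * u⁻¹)⁻¹ * b⁻¹ * (b * (u * b * u⁻¹)) := by group
    _ = (u * a * u⁻¹)⁻¹ * ((b⁻¹ * a) * (u * a * u⁻¹)) := by rw [← e]; group
    _ = _ := by rw [T.ab _ (mul_mem (inv_mem hb'.1) ha'.1) _ (T.nl.conj_mem a ha'.1 u)]; group

theorem rr (a : G) (ha : a ∈ W) (ia : t * a * t⁻¹ = a⁻¹) : a * a = 1 := by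
  by_contra n
  have ut : u * t * u⁻¹ = t := mul_inv_eq_of_eq_mul T.tu
  obtain ⟨x, hx, y1⟩ := T.tt.ex0 T.c0
  obtain ⟨x, hx, e⟩ : ∃ x ∈ T.W0, ⁅t, x⁆ = z := by
    rcases T.nt0 (T.tt.Y2 (T.tt.th0 hx)) (T.tt.th0 hx).2 with e | e | e
    exacts [absurd e y1, ⟨x, hx, e⟩, ⟨_, mul_mem hx (T.n0.conj_mem x hx u), by
      rw [T.tt.thM hx.1 (T.nl.conj_mem x hx.1 u), ← e, conjugate_commutatorElement, ut]⟩]
  have ha' := T.nl.conj_mem a ha u
  rcases T.nt0 (T.s0 ha) (fixI (by rw [← conj_mul, ia, mul_inv_rev]) (T.s0 ha).2) with e' | e' | e'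
  · exact n e'
  · exact n (T.tt.lN ha ia hx (e'.trans e.symm))
  have e2 : a * (u * a * u⁻¹) * (a * (u * a * u⁻¹)) = z := by
    rw [Commute.mul_mul_mul_comm (T.ab _ ha' a ha), conj_mul, e']
  refine T.z1 (e2.symm.trans (T.tt.lN (mul_mem ha ha') ?_ hx (e2.trans e.symm)))
  calc t * (a * (u * a * u⁻¹)) * t⁻¹ = t * a * t⁻¹ * (u * t * u⁻¹ * (u * a * u⁻¹) * (u * t * u⁻¹)⁻¹) := by rw [ut]; group
    _ = t * a * t⁻¹ * (u * (t * a * t⁻¹) * u⁻¹) := by group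
    _ = _ := by rw [ia, T.ab a ha _ ha']; group

theorem CU (c8 : 8 < #C[W]) (hk : π.ker = C[W]) (gen : ∀ x ∈ C1[t], x ∈ C1[u] → x ∈ E) (s : G) (e1 : π s * π t = π t * π s)
    (e2 : π s * π u = π u * π s) : π s ∈ E.map π := by
  obtain ⟨d, hd, m⟩ := T.tt.rL T.rr c8 hk e1
  have e : π (d⁻¹ * s) = π s := by rw [map_mul, map_inv, show π d = 1 from hk.ge hd, inv_one, one_mul]
  rw [← e] at e2 ⊢
  generalize d⁻¹ * s = x at *
  have hc := thK hk e2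
  have ct : ⁅u, x⁆ ∈ C1[t] := mul_mem (T.cu m) (inv_mem m)
  rcases T.F _ hc ct (fixI (thI T.u2 x) (T.tt.Y2 ⟨hc, ct⟩).2) with e | e
  · exact ⟨x, gen x m (mem_cent1.2 (commutatorElement_eq_one_iff_mul_comm.1 e).symm), rfl⟩
  obtain ⟨p, hp, pt, e3⟩ := T.exp
  refine ⟨_, gen _ (mul_mem (inv_mem pt) m) (thF (t := u) (.trans ?_ e.symm)), ?_⟩
  · rw [← e3, commutatorElement_def, inv_eq_of_mul_eq_one_right hp.2, T.ab p hp.1 _ (T.nl.conj_mem p hp.1 u)]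
  · rw [map_mul, map_inv, show π p = 1 from hk.ge (T.WC hp.1), inv_one, one_mul]

end Tu

theorem harada (pg : IsPGroup 2 G) (e2 : ∀ a ∈ E, a * a = 1) (cE : #E = 8) (hC : C[E] = E) (h : ∀ x ∈ H, x * x ∈ L) (l : L ≤ H) :
    #H ≤ 2 ^ 4 * #L := by
  by_cases no : NoE8 G
  · exact macw pg no l h
  simp only [NoE8, not_forall, not_le] at no
  obtain ⟨U, n, c, e, cU⟩ := no
  obtain ⟨W, A, UW⟩ := exists_Al0 pg n c e
  have c0 : 8 ≤ #A.W0 := (p2 pg (k := 2) cU).trans (card_le_of_le fun x hx => ⟨UW hx, e x hx⟩)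
  by_cases c8 : #C[W] ≤ 8
  · exact A.e8 h c8 c0
  replace c8 := not_le.1 c8
  have := A.nC
  have hk := QuotientGroup.ker_mk' C[W]
  have sj := QuotientGroup.mk'_surjective C[W]
  have pq := pg.to_quotient C[W]
  generalize QuotientGroup.mk' C[W] = π at hk sj
  have ab : ∀ a ∈ E, ∀ b ∈ E, a * b = b * a := fun a ha b hb => hC.ge hb a ha
  obtain ⟨z, ⟨hz, -, zc⟩, z1⟩ := (bot_or_exists_ne_one _).resolve_left (meet_center_nil (pgroup_nil (pg.to_subgroup ⊤))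
    (N := A.W0) ⟨le_top, have := A.n0; norm_of_normal _ _⟩ fun e => by simp [e] at c0)
  have zE : z ∈ E := hC.le fun a _ => zc a trivial
  have nl : ¬ E ≤ C[W] := fun l => by
    have l1 : W ≤ E := (cents_symm l).trans hC.le
    have := card_le_of_le (centS (eq_of_le_of_card_ge l1 (cE ▸ c0.trans (card_le_of_le fun _ h => h.1))).ge)
    rw [hC] at this
    omega
  by_cases c4 : 4 ≤ #(C[W] ⊓ E)
  · obtain ⟨t, ht, nt⟩ := SetLike.not_le_iff_exists.1 nl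
    have i : C[W].relIndex E = 2 := by
      have a := card_inf_mul_relIndex C[W] E
      have b : C[W].relIndex E ≠ 1 := fun e => nl (relIndex_eq_one.1 e)
      rcases hr : C[W].relIndex E with _ | _ | _ | r <;> rw [hr] at a b <;> first | omega | nlinarith
    have i2 : ∀ a ∈ E, π a = 1 ∨ π a = π t := fun a ha => (em (a ∈ C[W])).imp (hk.ge ·) fun n => by
      have : π (a * t) = 1 := hk.ge ((mul_mem_iff_of_index_two (a := ⟨a, ha⟩) (b := ⟨t, ht⟩) i).2 (iff_of_false n nt))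
      rw [← mul_one (π a), ← map_one π, ← e2 t ht, map_mul, ← mul_assoc, ← map_mul, this, one_mul]
    have l1 : C[W] ⊓ E ≤ C[W] ⊓ C1[t] := fun a ha => ⟨ha.1, mem_cent1.2 (ab a ha.2 t ht)⟩
    have gen : ∀ x ∈ C1[t], (∀ y ∈ C[W] ⊓ E, x * y = y * x) → x ∈ E := fun x hx k => hC.le fun a ha => by
      rcases i2 a ha with e | e
      · exact (k a ⟨hk.le e, ha⟩).symm
      · have := k (a * t⁻¹) ⟨hk.le (by simp [MonoidHom.mem_ker, e]), E.mul_mem ha (E.inv_mem ht)⟩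
        calc a * x = a * t⁻¹ * (t * x) := by group
          _ = _ := by rw [← mem_cent1.1 hx, ← mul_assoc, ← this]; group
    have l2 : C[W] ⊓ C1[t] ≤ C[W] ⊓ E := fun c hc =>
      ⟨hc.1, gen c hc.2 fun y hy => (hc.1 y (A.m0 hy.1 (e2 y hy.2)).1).symm⟩
    have T : Tt W t := ⟨A, nt, e2 t ht, fun w hw e => e2 w (l2 ⟨A.WC hw, mem_cent1.2 e⟩).2, (card_le_of_le l2).trans (by
      have := dbl inf_le_right ht fun m : t ∈ C[W] ⊓ E => nt m.1; omega)⟩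
    by_cases r : ∀ w ∈ W, t * w * t⁻¹ = w⁻¹ → w * w = 1
    · exact T.caseR h hk sj pq cE (fun x hx k => gen x hx fun y hy => k y (l1 hy)) i2 r c8 (A.WC hz.1) z1
        (fun g => zc g trivial) (c4.trans (card_le_of_le l1))
    · push Not at r
      obtain ⟨a, ha, ia, a2⟩ := r
      exact T.caseN h hk sj pq cE (fun x hx k => gen x hx fun y hy => k y (l1 hy)) i2 c0 ha ia a2
  have A0 : ∀ a ∈ E, a ∈ C[W] → a = 1 ∨ a = z := fun a ha hc => by
    by_contra! n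
    have := dbl (A := zpowers z) (B := C[W] ⊓ E) (zpowers_le.2 ⟨A.WC hz.1, zE⟩) ⟨hc, ha⟩ fun m => by
      obtain ⟨i, rfl⟩ := m
      rcases Int.even_or_odd' i with ⟨j, rfl | rfl⟩ <;> simp [zpow_add, zpow_mul, pow_two, hz.2] at n
    rw [Nat.card_zpowers, orderOf_eq_prime ((pow_two z).trans hz.2) z1] at this
    exact c4 this
  have ex : ∀ t ∈ E, t ∉ C[W] → ∃ u ∈ E, u ∉ C[W] ∧ ∀ x ∈ C1[t], x ∈ C1[u] → x ∈ E := fun t ht nt => by
    obtain ⟨u, hu, nu⟩ : ∃ u ∈ E, ¬ (u = 1 ∨ u = z ∨ u = t ∨ u = z * t) := by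
      by_contra! n
      have := (Set.ncard_le_ncard (s := (E : Set G)) (t := {1, z, t, z * t}) fun a ha => n a ha).trans ((Set.ncard_insert_le _ _).trans
        (Nat.succ_le_succ ((Set.ncard_insert_le _ _).trans (Nat.succ_le_succ (c2 _ _)))))
      exact absurd (cE.ge.trans this) (by decide)
    refine ⟨u, hu, fun m => nu ((A0 u hu m).imp_right .inl), fun x hx hx' => hC.le fun a ha => by_contra fun n => nu ?_⟩
    have := dbl (inf_le_left : E ⊓ C1[x] ≤ E) ha fun m => n (mem_cent1.1 m.2)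
    exact four_enum (U := E ⊓ C1[x]) (by omega) (fun a ha => e2 a ha.1) ⟨zE, mem_cent1.2 (zc x trivial).symm⟩
      ⟨ht, mem_cent1_comm.1 hx⟩ z1 (fun e => nt (e ▸ one_mem _)) (fun e => nt (e ▸ A.WC hz.1)) u ⟨hu, mem_cent1_comm.1 hx'⟩
  have tu : ∀ t ∈ E, t ∉ C[W] → ∀ u ∈ E, (∀ x ∈ C1[t], x ∈ C1[u] → x ∈ E) → Tu W t u z := fun t ht nt u hu g =>
    ⟨A, c0, nt, e2 t ht, e2 u hu, ab u hu t ht, z1, hz.2, fun c hc h1 h2 => A0 c (g c h1 h2) hc⟩
  obtain ⟨t, ht, nt⟩ := SetLike.not_le_iff_exists.1 nl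
  obtain ⟨u, hu, -, g⟩ := ex t ht nt
  have cen : ∀ x, π x ≠ 1 → (∀ g, g * π x = π x * g) → ∃ a ∈ E, a ∉ C[W] ∧ π a = π x := fun x x1 e =>
    ((tu t ht nt u hu g).CU c8 hk g x (e _).symm (e _).symm).imp fun a ha => ⟨ha.1, fun m => x1 (ha.2.symm.trans (hk.ge m)), ha.2⟩
  have : Nontrivial (G ⧸ C[W]) := ⟨π t, 1, fun e => nt (hk.le e)⟩
  have := pq.center_nontrivial
  obtain ⟨⟨q, hq⟩, q1⟩ := exists_ne (1 : center (G ⧸ C[W]))
  obtain ⟨x, rfl⟩ := sj q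
  obtain ⟨v, hv, nv, e3⟩ := cen x (fun e => q1 (Subtype.ext e)) (mem_center_iff.1 hq)
  obtain ⟨s, hs, ns, g'⟩ := ex v hv nv
  have T := tu s hs ns v hv fun x a b => g' x b a
  refine T.tt.finR T.rr h hk pq (q := π s) ((card_le_of_le (K := E.map π) fun q hq' => ?_).trans ?_) fun x x1 e => ?_
  · obtain ⟨y, rfl⟩ := sj q
    exact T.CU c8 hk (fun x a b => g' x b a) y (mem_cent1.1 hq') (e3 ▸ mem_center_iff.1 hq _)
  · have := cmap hk E
    have := (one_lt_card_iff_ne_bot (C[W] ⊓ E)).2 fun e => z1 (mem_bot.1 (e.le ⟨A.WC hz.1, zE⟩))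
    nlinarith
  obtain ⟨a, ha, na, e⟩ := cen x x1 e
  obtain ⟨b, hb, -, g⟩ := ex a ha na
  rw [← inv_mul_cancel_right x a]
  have T' := (tu a ha na b hb g).tt
  exact (card_le_of_le (T'.cst (hk.le (by simp [MonoidHom.mem_ker, e])))).trans T'.c

end Cfsg.Agent.MacW
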